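import Mathlib
import Cfsg.Agent.Lib.Char.SylowSq.Core
import Cfsg.Agent.Lib.Char.SylowSq.Arith

/-!
# Squares in Sylow 2-subgroups of a fibre product of "generalized dihedral" groups
-/

set_option autoImplicit false
set_option linter.unusedSectionVars false

namespace Cfsg.Agent.Lib.Char.G2Syl.Abs

open Subgroup
open scoped commutatorElement
open Cfsg.Agent.Lib.Char.SylowSq.Arith

section Sylow

/-- The image of a Sylow subgroup is Sylow when the order of the kernel is small. -/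
theorem sylow_of_map {G H : Type*} [Group G] [Group H] [Finite G] [Finite H] (φ : G →* H) (S : Sylow 2 G)
    (hv : v2 (Nat.card H) + v2 (Nat.card φ.ker) ≤ v2 (Nat.card G)) :
    ∃ Q : Sylow 2 H, (Q : Subgroup H) = (S : Subgroup G).map φ := by
  have hpr : Nat.Prime 2 := Nat.prime_two
  have : Fact (Nat.Prime 2) := ⟨hpr⟩
  have hP : IsPGroup 2 ((S : Subgroup G).map φ) := S.2.map φ
  obtain ⟨Q, hQ⟩ := hP.exists_le_sylow
  refine ⟨Q, ?_⟩
  symm
  apply Subgroup.eq_of_le_of_card_ge hQ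
  -- the Sylow subgroup of the range
  have hf : Function.Surjective φ.rangeRestrict := φ.rangeRestrict_surjective
  let Q' : Sylow 2 φ.range := S.mapSurjective (f := φ.rangeRestrict) hf
  have h1 : (Q' : Subgroup φ.range) = (S : Subgroup G).map φ.rangeRestrict := Sylow.coe_mapSurjective _ _
  have h2 : ((Q' : Subgroup φ.range).map φ.range.subtype) = (S : Subgroup G).map φ := by
    rw [h1, Subgroup.map_map]
    rfl
  have h3 : Nat.card ((Q' : Subgroup φ.range).map φ.range.subtype) = Nat.card Q' :=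
    Nat.card_congr ((Q' : Subgroup φ.range).equivMapOfInjective _ φ.range.subtype_injective).symm.toEquiv
  rw [← h2, h3, Sylow.card_eq_multiplicity, Sylow.card_eq_multiplicity]
  apply Nat.pow_le_pow_right (by norm_num)
  have h4 : Nat.card φ.ker * Nat.card φ.range = Nat.card G := by
    rw [← Subgroup.index_ker, Subgroup.card_mul_index]
  have hk : Nat.card φ.ker ≠ 0 := Nat.card_pos.ne'
  have hr : Nat.card φ.range ≠ 0 := Nat.card_pos.ne'
  have h5 : v2 (Nat.card G) = v2 (Nat.card φ.ker) + v2 (Nat.card φ.range) := by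
    rw [← h4, v2_mul hk hr]
  show v2 (Nat.card H) ≤ v2 (Nat.card φ.range)
  omega

/-- A Sylow subgroup maps onto a `2`-group quotient. -/
theorem sylow_map_top {G A : Type*} [Group G] [Group A] [Finite G] [Finite A] (f : G →* A)
    (hf : Function.Surjective f) (hA : IsPGroup 2 A) (S : Sylow 2 G) (a : A) :
    ∃ x ∈ (S : Subgroup G), f x = a := by
  have : Fact (Nat.Prime 2) := ⟨Nat.prime_two⟩
  let Q : Sylow 2 A := S.mapSurjective (f := f) hf
  have h1 : (Q : Subgroup A) = (S : Subgroup G).map f := Sylow.coe_mapSurjective _ _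
  have h2 : (⊤ : Subgroup A) = Q := Q.is_maximal' (IsPGroup.to_subgroup hA ⊤) le_top
  have h3 : a ∈ (Q : Subgroup A) := by
    rw [← h2]
    trivial
  rw [h1] at h3
  obtain ⟨x, hx, hxa⟩ := h3
  exact ⟨x, hx, hxa⟩

end Sylow

variable {N A : Type*} [Group N] [CommGroup A]

/-- The fibre product. -/
def BB (δ : N →* A) : Subgroup (N × N) :=
  (δ.comp (MonoidHom.fst N N)).eqLocus (δ.comp (MonoidHom.snd N N))

theorem mem_BB {δ : N →* A} {x : N × N} : x ∈ BB δ ↔ δ x.1 = δ x.2 := Iff.rfl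

section Card

variable (δ : N →* A)

/-- `B ≃ N × ker δ`. -/
def bbEquiv : BB δ ≃ N × δ.ker where
  toFun x := (x.1.1, ⟨x.1.1⁻¹ * x.1.2, by
    have := x.2
    rw [mem_BB] at this
    rw [MonoidHom.mem_ker, map_mul, map_inv, ← this, inv_mul_cancel]⟩)
  invFun y := ⟨(y.1, y.1 * y.2.1), by
    rw [mem_BB]
    show δ y.1 = δ (y.1 * y.2.1)
    rw [map_mul, MonoidHom.mem_ker.1 y.2.2, mul_one]⟩
  left_inv x := by
    apply Subtype.ext
    refine Prod.ext rfl ?_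
    simp
  right_inv y := by
    refine Prod.ext rfl (Subtype.ext ?_)
    simp

theorem card_BB : Nat.card (BB δ) = Nat.card N * Nat.card δ.ker := by
  rw [Nat.card_congr (bbEquiv δ), Nat.card_prod]

end Card

variable (χ : N →* ℤˣ) (δ : N →* A) (s : A →* N) (m1 : A) (i : N)

/-- The hypotheses on the generalized dihedral group. -/
structure Hyp : Prop where
  s_comm : ∀ a n, s a * n = n * s a
  T_comm : ∀ a b, χ a = 1 → χ b = 1 → a * b = b * a
  sq_T : ∀ c r, χ c = 1 → χ r = -1 → c * c = s (δ c) * (c * r * c⁻¹ * r⁻¹)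
  sq_R : ∀ c, χ c = -1 → c * c = s (m1 * δ c)
  i_T : χ i = 1
  i_δ : δ i = 1
  i_sq : i * i = s m1

variable {χ δ s m1 i}

/-- The scalar pairs. -/
def dg (δ : N →* A) (s : A →* N) (a : A) : BB δ := ⟨(s a, s a), rfl⟩

/-- A pair. -/
def pr (δ : N →* A) (c p : N) (h : δ c = δ p) : BB δ := ⟨(c, p), h⟩

theorem comm_triv {a b : N} (h : a * b = b * a) : a * b * a⁻¹ * b⁻¹ = 1 := by
  rw [h]
  group

/-- Squares are products of scalars and commutators. -/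
theorem square_main (hH : Hyp χ δ s m1 i) (S : Subgroup (BB δ))
    {g₁ g₂ : BB δ} (hg₁ : g₁ ∈ S) (hg₂ : g₂ ∈ S)
    (h11 : χ g₁.1.1 = -1) (h12 : χ g₁.1.2 = 1) (h21 : χ g₂.1.1 = 1) (h22 : χ g₂.1.2 = -1)
    (hi1 : pr δ i 1 (by rw [hH.i_δ, map_one]) ∈ S) (hi2 : pr δ 1 i (by rw [hH.i_δ, map_one]) ∈ S)
    (hd1 : ∀ x ∈ S, χ x.1.2 = 1 → pr δ x.1.2 x.1.2 rfl ∈ S)
    (hd2 : ∀ x ∈ S, χ x.1.1 = 1 → pr δ x.1.1 x.1.1 rfl ∈ S)
    (x : BB δ) (hx : x ∈ S) : ∃ a : A, ∃ u ∈ ⁅S, S⁆, x * x = dg δ s a * u := by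
  obtain ⟨⟨c, p⟩, hcp⟩ := x
  rw [mem_BB] at hcp
  simp only at hcp
  obtain ⟨⟨r₁, t₂⟩, hg1⟩ := g₁
  obtain ⟨⟨t₃, r₄⟩, hg2⟩ := g₂
  simp only at h11 h12 h21 h22
  have hiT : χ i = 1 := hH.i_T
  have hiδ : δ i = 1 := hH.i_δ
  have hii1 : i * r₁ * i⁻¹ * r₁⁻¹ = s m1 := by
    have := hH.sq_T i r₁ hiT h11
    rw [hiδ, map_one, one_mul, hH.i_sq] at this
    exact this.symm
  have hii2 : i * r₄ * i⁻¹ * r₄⁻¹ = s m1 := by
    have := hH.sq_T i r₄ hiT h22
    rw [hiδ, map_one, one_mul, hH.i_sq] at this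
    exact this.symm
  rcases Int.units_eq_one_or (χ c) with hc | hc <;> rcases Int.units_eq_one_or (χ p) with hp | hp
  · -- TT
    refine ⟨δ c, _, Subgroup.mul_mem _ (Subgroup.commutator_mem_commutator hx hg₁)
      (Subgroup.commutator_mem_commutator hx hg₂), ?_⟩
    apply Subtype.ext
    refine Prod.ext ?_ ?_
    · show c * c = s (δ c) * ((c * r₁ * c⁻¹ * r₁⁻¹) * (c * t₃ * c⁻¹ * t₃⁻¹))
      rw [comm_triv (hH.T_comm c t₃ hc h21), mul_one]
      exact hH.sq_T c r₁ hc h11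
    · show p * p = s (δ c) * ((p * t₂ * p⁻¹ * t₂⁻¹) * (p * r₄ * p⁻¹ * r₄⁻¹))
      rw [comm_triv (hH.T_comm p t₂ hp h12), one_mul, hcp]
      exact hH.sq_T p r₄ hp h22
  · -- TR
    refine ⟨δ c, _, Subgroup.mul_mem _ (Subgroup.commutator_mem_commutator (hd2 _ hx hc) hg₁)
      (Subgroup.commutator_mem_commutator hi2 hg₂), ?_⟩
    apply Subtype.ext
    refine Prod.ext ?_ ?_
    · show c * c = s (δ c) * ((c * r₁ * c⁻¹ * r₁⁻¹) * (1 * t₃ * 1⁻¹ * t₃⁻¹))
      have : (1 : N) * t₃ * 1⁻¹ * t₃⁻¹ = 1 := by group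
      rw [this, mul_one]
      exact hH.sq_T c r₁ hc h11
    · show p * p = s (δ c) * ((c * t₂ * c⁻¹ * t₂⁻¹) * (i * r₄ * i⁻¹ * r₄⁻¹))
      rw [comm_triv (hH.T_comm c t₂ hc h12), one_mul, hii2, hH.sq_R p hp, hcp, ← map_mul, mul_comm]
  · -- RT
    refine ⟨δ c, _, Subgroup.mul_mem _ (Subgroup.commutator_mem_commutator hi1 hg₁)
      (Subgroup.commutator_mem_commutator (hd1 _ hx hp) hg₂), ?_⟩
    apply Subtype.ext
    refine Prod.ext ?_ ?_
    · show c * c = s (δ c) * ((i * r₁ * i⁻¹ * r₁⁻¹) * (p * t₃ * p⁻¹ * t₃⁻¹))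
      rw [comm_triv (hH.T_comm p t₃ hp h21), mul_one, hii1, hH.sq_R c hc, ← map_mul, mul_comm]
    · show p * p = s (δ c) * ((1 * t₂ * 1⁻¹ * t₂⁻¹) * (p * r₄ * p⁻¹ * r₄⁻¹))
      have : (1 : N) * t₂ * 1⁻¹ * t₂⁻¹ = 1 := by group
      rw [this, one_mul, hcp]
      exact hH.sq_T p r₄ hp h22
  · -- RR
    refine ⟨m1 * δ c, 1, Subgroup.one_mem _, ?_⟩
    apply Subtype.ext
    refine Prod.ext ?_ ?_
    · show c * c = s (m1 * δ c) * 1
      rw [mul_one]
      exact hH.sq_R c hc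
    · show p * p = s (m1 * δ c) * 1
      rw [mul_one, hcp]
      exact hH.sq_R p hp

section KK

variable (hT : ∀ a b : N, χ a = 1 → χ b = 1 → a * b = b * a)
include hT

/-- The `2`-elements of `T × T` in the fibre product. -/
def KK (χ : N →* ℤˣ) (δ : N →* A) (hT : ∀ a b : N, χ a = 1 → χ b = 1 → a * b = b * a) : Subgroup (BB δ) where
  carrier := {x | χ x.1.1 = 1 ∧ χ x.1.2 = 1 ∧ ∃ n : ℕ, x ^ (2 ^ n) = 1}
  mul_mem' := by
    rintro a b ⟨h1, h2, n, hn⟩ ⟨h3, h4, m, hm⟩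
    refine ⟨?_, ?_, n + m, ?_⟩
    · show χ (a.1.1 * b.1.1) = 1
      rw [map_mul, h1, h3, mul_one]
    · show χ (a.1.2 * b.1.2) = 1
      rw [map_mul, h2, h4, mul_one]
    · have hc : Commute a b := by
        apply Subtype.ext
        refine Prod.ext ?_ ?_
        · exact hT _ _ h1 h3
        · exact hT _ _ h2 h4
      rw [hc.mul_pow, pow_add, pow_mul, hn, one_pow, one_mul, mul_comm, pow_mul, hm, one_pow]
  one_mem' := ⟨map_one χ, map_one χ, 0, by simp⟩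
  inv_mem' := by
    rintro a ⟨h1, h2, n, hn⟩
    refine ⟨?_, ?_, n, ?_⟩
    · show χ (a.1.1)⁻¹ = 1
      rw [map_inv, h1, inv_one]
    · show χ (a.1.2)⁻¹ = 1
      rw [map_inv, h2, inv_one]
    · rw [inv_pow, hn, inv_one]

theorem isP_KK : IsPGroup 2 (KK χ δ hT) := by
  rintro ⟨x, h1, h2, n, hn⟩
  refine ⟨n, ?_⟩
  apply Subtype.ext
  exact hn

end KK

/-- The final statement in the abstract setting. -/
theorem exists_sylow_square [Finite N] (hH : Hyp χ δ s m1 i)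
    (hin : ∃ r t, δ r = δ t ∧ χ r = -1 ∧ χ t = 1) (hi4 : i ^ 4 = 1) :
    ∃ S : Sylow 2 (BB δ), ∀ x ∈ (S : Subgroup (BB δ)), ∃ a : A, ∃ u ∈ ⁅(S : Subgroup (BB δ)), (S : Subgroup (BB δ))⁆,
      x * x = dg δ s a * u := by
  have : Fact (Nat.Prime 2) := ⟨Nat.prime_two⟩
  obtain ⟨S, hS⟩ := (isP_KK (χ := χ) (δ := δ) hH.T_comm).exists_le_sylow
  refine ⟨S, ?_⟩
  -- the map to the sign group
  let f : BB δ →* ℤˣ × ℤˣ := ((χ.comp (MonoidHom.fst N N)).prod (χ.comp (MonoidHom.snd N N))).comp (BB δ).subtype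
  have hf0 : ∀ x : BB δ, f x = (χ x.1.1, χ x.1.2) := fun x => rfl
  obtain ⟨r, t, hrt, hr, ht⟩ := hin
  have hf : Function.Surjective f := by
    have hy1 : f (pr δ r t hrt) = (-1, 1) := by
      rw [hf0]
      exact Prod.ext hr ht
    have hy2 : f (pr δ t r hrt.symm) = (1, -1) := by
      rw [hf0]
      exact Prod.ext ht hr
    rintro ⟨a, b⟩
    rcases Int.units_eq_one_or a with rfl | rfl <;> rcases Int.units_eq_one_or b with rfl | rfl
    · exact ⟨1, map_one f⟩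
    · exact ⟨_, hy2⟩
    · exact ⟨_, hy1⟩
    · exact ⟨pr δ r t hrt * pr δ t r hrt.symm, by rw [map_mul, hy1, hy2]; rfl⟩
  have hA : IsPGroup 2 (ℤˣ × ℤˣ) := by
    apply IsPGroup.of_card (n := 2)
    rw [Nat.card_prod, Nat.card_eq_fintype_card, Fintype.card_units_int]
    norm_num
  obtain ⟨g₁, hg₁, hg₁f⟩ := sylow_map_top f hf hA S (-1, 1)
  obtain ⟨g₂, hg₂, hg₂f⟩ := sylow_map_top f hf hA S (1, -1)
  rw [hf0] at hg₁f hg₂f
  have h11 : χ g₁.1.1 = -1 := congrArg Prod.fst hg₁f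
  have h12 : χ g₁.1.2 = 1 := congrArg Prod.snd hg₁f
  have h21 : χ g₂.1.1 = 1 := congrArg Prod.fst hg₂f
  have h22 : χ g₂.1.2 = -1 := congrArg Prod.snd hg₂f
  have hpow : ∀ (y : BB δ) (n : ℕ), y ^ n = 1 → y.1.1 ^ n = 1 ∧ y.1.2 ^ n = 1 := by
    intro y n hy
    have h1 : (y ^ n).1 = (1 : N × N) := by rw [hy]; rfl
    exact ⟨congrArg Prod.fst h1, congrArg Prod.snd h1⟩
  have hpair : ∀ (a b : N) (h : δ a = δ b) (n : ℕ), a ^ n = 1 → b ^ n = 1 → pr δ a b h ^ n = 1 := by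
    intro a b h n ha hb
    apply Subtype.ext
    refine Prod.ext ha hb
  refine square_main hH (S : Subgroup (BB δ)) hg₁ hg₂ h11 h12 h21 h22 ?_ ?_ ?_ ?_
  · exact hS ⟨hH.i_T, map_one χ, 2, hpair _ _ _ _ hi4 (one_pow _)⟩
  · exact hS ⟨map_one χ, hH.i_T, 2, hpair _ _ _ _ (one_pow _) hi4⟩
  · intro x hx hp
    obtain ⟨n, hn⟩ := S.2 ⟨x, hx⟩
    have hn' : x ^ 2 ^ n = 1 := congrArg Subtype.val hn
    have h2 := (hpow x _ hn').2
    exact hS ⟨hp, hp, n, hpair _ _ _ _ h2 h2⟩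
  · intro x hx hp
    obtain ⟨n, hn⟩ := S.2 ⟨x, hx⟩
    have hn' : x ^ 2 ^ n = 1 := congrArg Subtype.val hn
    have h2 := (hpow x _ hn').1
    exact hS ⟨hp, hp, n, hpair _ _ _ _ h2 h2⟩

end Cfsg.Agent.Lib.Char.G2Syl.Abs
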