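import Mathlib
import Cfsg.Prelude.Def_G2
import Cfsg.Agent.Lib.Linalg.OrthModels

/-!
# Zorn's vector-matrix algebra on `F⁸`: norm, trace, conjugation and the basic identities
-/

set_option autoImplicit false
set_option linter.unusedSectionVars false

namespace Cfsg.Agent.Lib.Char.G2Syl.Zorn

open Cfsg.Lie QuadraticMap

universe u

variable {F : Type u} [Field F]

/-- The underlying space. -/
abbrev O8 (F : Type u) := Fin 8 → F

/-- Product, with a short name. -/
abbrev zm (x y : O8 F) : O8 F := zornMul x y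

theorem ext8 {x y : O8 F} (h0 : x 0 = y 0) (h1 : x 1 = y 1) (h2 : x 2 = y 2) (h3 : x 3 = y 3)
    (h4 : x 4 = y 4) (h5 : x 5 = y 5) (h6 : x 6 = y 6) (h7 : x 7 = y 7) : x = y := by
  funext i
  fin_cases i
  exacts [h0, h1, h2, h3, h4, h5, h6, h7]

section coords

variable (x y : O8 F)

theorem zm0 : zm x y 0 = x 0 * y 0 + (x 1 * y 4 + x 2 * y 5 + x 3 * y 6) := rfl
theorem zm1 : zm x y 1 = x 0 * y 1 + y 7 * x 1 - (x 5 * y 6 - x 6 * y 5) := rfl
theorem zm2 : zm x y 2 = x 0 * y 2 + y 7 * x 2 - (x 6 * y 4 - x 4 * y 6) := rfl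
theorem zm3 : zm x y 3 = x 0 * y 3 + y 7 * x 3 - (x 4 * y 5 - x 5 * y 4) := rfl
theorem zm4 : zm x y 4 = y 0 * x 4 + x 7 * y 4 + (x 2 * y 3 - x 3 * y 2) := rfl
theorem zm5 : zm x y 5 = y 0 * x 5 + x 7 * y 5 + (x 3 * y 1 - x 1 * y 3) := rfl
theorem zm6 : zm x y 6 = y 0 * x 6 + x 7 * y 6 + (x 1 * y 2 - x 2 * y 1) := rfl
theorem zm7 : zm x y 7 = (x 4 * y 1 + x 5 * y 2 + x 6 * y 3) + x 7 * y 7 := rfl

end coords

/-- The identity. -/
def oneZ : O8 F := ![1, 0, 0, 0, 0, 0, 0, 1]

/-- The norm. -/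
def normZ (x : O8 F) : F := x 0 * x 7 - (x 1 * x 4 + x 2 * x 5 + x 3 * x 6)

/-- The trace. -/
def trZ (x : O8 F) : F := x 0 + x 7

/-- The polar form of the norm. -/
def polZ (x y : O8 F) : F :=
  x 0 * y 7 + y 0 * x 7 - (x 1 * y 4 + y 1 * x 4 + x 2 * y 5 + y 2 * x 5 + x 3 * y 6 + y 3 * x 6)

/-- Conjugation. -/
def barZ (x : O8 F) : O8 F := ![x 7, - x 1, - x 2, - x 3, - x 4, - x 5, - x 6, x 0]

section vals
variable (x : O8 F)
@[simp] theorem one0 : (oneZ : O8 F) 0 = 1 := rfl
@[simp] theorem one1 : (oneZ : O8 F) 1 = 0 := rfl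
@[simp] theorem one2 : (oneZ : O8 F) 2 = 0 := rfl
@[simp] theorem one3 : (oneZ : O8 F) 3 = 0 := rfl
@[simp] theorem one4 : (oneZ : O8 F) 4 = 0 := rfl
@[simp] theorem one5 : (oneZ : O8 F) 5 = 0 := rfl
@[simp] theorem one6 : (oneZ : O8 F) 6 = 0 := rfl
@[simp] theorem one7 : (oneZ : O8 F) 7 = 1 := rfl
@[simp] theorem bar0 : barZ x 0 = x 7 := rfl
@[simp] theorem bar1 : barZ x 1 = - x 1 := rfl
@[simp] theorem bar2 : barZ x 2 = - x 2 := rfl
@[simp] theorem bar3 : barZ x 3 = - x 3 := rfl
@[simp] theorem bar4 : barZ x 4 = - x 4 := rfl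
@[simp] theorem bar5 : barZ x 5 = - x 5 := rfl
@[simp] theorem bar6 : barZ x 6 = - x 6 := rfl
@[simp] theorem bar7 : barZ x 7 = x 0 := rfl
end vals

section ids

variable (x y z x' y' : O8 F) (c : F)

theorem one_zm : zm oneZ x = x := by
  apply ext8 <;> simp only [zm0, zm1, zm2, zm3, zm4, zm5, zm6, zm7, one0, one1, one2, one3, one4, one5, one6, one7] <;> ring

theorem zm_one : zm x oneZ = x := by
  apply ext8 <;> simp only [zm0, zm1, zm2, zm3, zm4, zm5, zm6, zm7, one0, one1, one2, one3, one4, one5, one6, one7] <;> ring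

theorem add_zm : zm (x + x') y = zm x y + zm x' y := by
  apply ext8 <;> simp only [zm0, zm1, zm2, zm3, zm4, zm5, zm6, zm7, Pi.add_apply] <;> ring

theorem zm_add : zm x (y + y') = zm x y + zm x y' := by
  apply ext8 <;> simp only [zm0, zm1, zm2, zm3, zm4, zm5, zm6, zm7, Pi.add_apply] <;> ring

theorem smul_zm : zm (c • x) y = c • zm x y := by
  apply ext8 <;> simp only [zm0, zm1, zm2, zm3, zm4, zm5, zm6, zm7, Pi.smul_apply, smul_eq_mul] <;> ring

theorem zm_smul : zm x (c • y) = c • zm x y := by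
  apply ext8 <;> simp only [zm0, zm1, zm2, zm3, zm4, zm5, zm6, zm7, Pi.smul_apply, smul_eq_mul] <;> ring

theorem normZ_zm : normZ (zm x y) = normZ x * normZ y := by
  simp only [normZ, zm0, zm1, zm2, zm3, zm4, zm5, zm6, zm7]
  ring

theorem alt_left : zm x (zm x y) = zm (zm x x) y := by
  apply ext8 <;> simp only [zm0, zm1, zm2, zm3, zm4, zm5, zm6, zm7] <;> ring

theorem alt_right : zm (zm y x) x = zm y (zm x x) := by
  apply ext8 <;> simp only [zm0, zm1, zm2, zm3, zm4, zm5, zm6, zm7] <;> ring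

theorem sq_eq : zm x x = trZ x • x - normZ x • oneZ := by
  apply ext8 <;>
    simp only [zm0, zm1, zm2, zm3, zm4, zm5, zm6, zm7, trZ, normZ, Pi.sub_apply, Pi.smul_apply, smul_eq_mul,
      one0, one1, one2, one3, one4, one5, one6, one7] <;> ring

theorem polZ_comm : polZ x y = polZ y x := by
  simp only [polZ]
  ring

theorem polZ_add_left : polZ (x + x') y = polZ x y + polZ x' y := by
  simp only [polZ, Pi.add_apply]
  ring

theorem polZ_add_right : polZ x (y + y') = polZ x y + polZ x y' := by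
  simp only [polZ, Pi.add_apply]
  ring

theorem polZ_smul_left : polZ (c • x) y = c * polZ x y := by
  simp only [polZ, Pi.smul_apply, smul_eq_mul]
  ring

theorem polZ_smul_right : polZ x (c • y) = c * polZ x y := by
  simp only [polZ, Pi.smul_apply, smul_eq_mul]
  ring

theorem polZ_neg_right : polZ x (- y) = - polZ x y := by
  simp only [polZ, Pi.neg_apply]
  ring

theorem polZ_neg_left : polZ (- x) y = - polZ x y := by
  simp only [polZ, Pi.neg_apply]
  ring

theorem polZ_sub_left : polZ (x - x') y = polZ x y - polZ x' y := by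
  simp only [polZ, Pi.sub_apply]
  ring

theorem polZ_sub_right : polZ x (y - y') = polZ x y - polZ x y' := by
  simp only [polZ, Pi.sub_apply]
  ring

theorem polZ_self : polZ x x = 2 * normZ x := by
  simp only [polZ, normZ]
  ring

theorem polZ_zero_right : polZ x 0 = 0 := by
  simp only [polZ, Pi.zero_apply]
  ring

theorem polZ_zero_left : polZ 0 x = 0 := by
  simp only [polZ, Pi.zero_apply]
  ring

theorem normZ_add : normZ (x + y) = normZ x + normZ y + polZ x y := by
  simp only [polZ, normZ, Pi.add_apply]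
  ring

theorem normZ_smul : normZ (c • x) = c * c * normZ x := by
  simp only [normZ, Pi.smul_apply, smul_eq_mul]
  ring

theorem normZ_neg : normZ (- x) = normZ x := by
  simp only [normZ, Pi.neg_apply]
  ring

theorem normZ_sub : normZ (x - y) = normZ x + normZ y - polZ x y := by
  simp only [polZ, normZ, Pi.sub_apply]
  ring

theorem normZ_one : normZ (oneZ : O8 F) = 1 := by
  simp [normZ]

theorem trZ_one : trZ (oneZ : O8 F) = 2 := by
  simp [trZ]
  ring

theorem polZ_one : polZ x oneZ = trZ x := by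
  simp only [polZ, trZ, one0, one1, one2, one3, one4, one5, one6, one7]
  ring

theorem one_polZ : polZ oneZ x = trZ x := by
  rw [polZ_comm, polZ_one]

theorem adj_left : polZ (zm x y) z = polZ y (zm (barZ x) z) := by
  simp only [polZ, zm0, zm1, zm2, zm3, zm4, zm5, zm6, zm7, bar0, bar1, bar2, bar3, bar4, bar5, bar6, bar7]
  ring

theorem adj_right : polZ (zm y x) z = polZ y (zm z (barZ x)) := by
  simp only [polZ, zm0, zm1, zm2, zm3, zm4, zm5, zm6, zm7, bar0, bar1, bar2, bar3, bar4, bar5, bar6, bar7]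
  ring

theorem comp_left : polZ (zm x y) (zm x z) = normZ x * polZ y z := by
  simp only [polZ, normZ, zm0, zm1, zm2, zm3, zm4, zm5, zm6, zm7]
  ring

theorem comp_right : polZ (zm y x) (zm z x) = normZ x * polZ y z := by
  simp only [polZ, normZ, zm0, zm1, zm2, zm3, zm4, zm5, zm6, zm7]
  ring

theorem barZ_eq : barZ x = trZ x • oneZ - x := by
  apply ext8 <;>
    simp only [trZ, Pi.sub_apply, Pi.smul_apply, smul_eq_mul, bar0, bar1, bar2, bar3, bar4, bar5, bar6, bar7,
      one0, one1, one2, one3, one4, one5, one6, one7] <;> ring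

theorem barZ_of_tr {x : O8 F} (h : trZ x = 0) : barZ x = - x := by
  rw [barZ_eq, h, zero_smul, zero_sub]

/-- For `y` of trace zero, `tr (x y) = - pol (x, y)`. -/
theorem trZ_zm_of_tr {y : O8 F} (x : O8 F) (h : trZ y = 0) : trZ (zm x y) = - polZ x y := by
  have h1 : polZ (zm x y) oneZ = polZ x (zm oneZ (barZ y)) := adj_right _ _ _
  rw [polZ_one, one_zm, barZ_of_tr h, polZ_neg_right] at h1
  exact h1

/-- `x y + y x = - pol (x, y)` for trace-zero elements. -/
theorem zm_add_comm_of_tr {x y : O8 F} (hx : trZ x = 0) (hy : trZ y = 0) :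
    zm x y + zm y x = (- polZ x y) • oneZ := by
  have h1 := sq_eq (x + y)
  have h2 := sq_eq x
  have h3 := sq_eq y
  have h4 : trZ (x + y) = 0 := by
    simp only [trZ, Pi.add_apply] at *
    linear_combination hx + hy
  rw [h4, zero_smul, zero_sub, normZ_add, add_zm, zm_add, zm_add] at h1
  rw [hx, zero_smul, zero_sub] at h2
  rw [hy, zero_smul, zero_sub] at h3
  rw [h2, h3] at h1
  funext i
  have := congrFun h1 i
  simp only [Pi.add_apply, Pi.neg_apply, Pi.smul_apply, smul_eq_mul] at this ⊢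
  linear_combination this

end ids

/-- The norm, as a bundled quadratic form. -/
def NQ (F : Type u) [Field F] : QuadraticForm F (O8 F) :=
  Cfsg.Agent.Lib.Linalg.OrthModels.mkQ normZ
    (LinearMap.mk₂ F polZ (fun a b c => polZ_add_left a c b) (fun c x y => by rw [polZ_smul_left, smul_eq_mul]) polZ_add_right
      (fun c x y => by rw [polZ_smul_right, smul_eq_mul]))
    (fun c x => normZ_smul x c) (fun x y => normZ_add x y)

theorem NQ_apply (x : O8 F) : NQ F x = normZ x := rfl

theorem polar_NQ (x y : O8 F) : polar (NQ F) x y = polZ x y := by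
  simp only [polar, NQ_apply, normZ_add]
  ring

end Cfsg.Agent.Lib.Char.G2Syl.Zorn
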