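import Mathlib
import Cfsg.Agent.Lib.Char.G2Syl.Zorn

/-!
# Automorphisms of Zorn's algebra act freely on "basic triples"
-/

set_option autoImplicit false
set_option linter.unusedSectionVars false

namespace Cfsg.Agent.Lib.Char.G2Syl.Triple

open Cfsg.Lie QuadraticMap Cfsg.Agent.Lib.Char.G2Syl.Zorn Module

universe u

variable {F : Type u} [Field F]

/-- The automorphism group, inside the linear automorphisms. -/
def AutZ (F : Type u) [Field F] : Subgroup (O8 F ≃ₗ[F] O8 F) where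
  carrier := {g | ∀ x y, g (zm x y) = zm (g x) (g y)}
  mul_mem' := by
    intro a b ha hb x y
    rw [LinearEquiv.mul_apply, hb, ha]
    rfl
  one_mem' := fun x y => rfl
  inv_mem' := by
    intro a ha x y
    apply a.injective
    rw [ha]
    simp only [← LinearEquiv.mul_apply, mul_inv_cancel, LinearEquiv.coe_one, id_eq]

/-- The group `G₂(F)` as linear automorphisms. -/
noncomputable def isoG2 : Cfsg.Lie.G2 F ≃* AutZ F := by
  let Φ : Matrix.GeneralLinearGroup (Fin 8) F ≃* ((Fin 8 → F) ≃ₗ[F] (Fin 8 → F)) :=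
    Matrix.GeneralLinearGroup.toLin.trans (LinearMap.GeneralLinearGroup.generalLinearEquiv F (Fin 8 → F))
  have hΦ : ∀ (g : Matrix.GeneralLinearGroup (Fin 8) F) (x : Fin 8 → F), Φ g x = (g : Matrix _ _ F).mulVec x := by
    intro g x
    rfl
  refine (Φ.subgroupMap _).trans (MulEquiv.subgroupCongr ?_)
  ext g
  constructor
  · rintro ⟨h, hh, rfl⟩
    intro x y
    show Φ h (zm x y) = zm (Φ h x) (Φ h y)
    rw [hΦ, hΦ, hΦ]
    exact hh x y
  · intro hg
    refine ⟨Φ.symm g, ?_, by simp⟩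
    intro x y
    have h2 : ∀ u, Φ (Φ.symm g) u = g u := fun u => by simp
    have h3 : ∀ u, (Units.coeHom (Matrix (Fin 8) (Fin 8) F) (Φ.symm g)).mulVec u = g u := fun u => by
      have h4 := h2 u
      rw [hΦ] at h4
      exact h4
    rw [h3, h3, h3]
    exact hg x y

variable (g : AutZ F)

theorem aut_mul (x y : O8 F) : g.1 (zm x y) = zm (g.1 x) (g.1 y) := g.2 x y

theorem aut_one : g.1 oneZ = oneZ := by
  have h : ∀ y : O8 F, zm (g.1 oneZ) y = y := by
    intro y
    obtain ⟨z, rfl⟩ := g.1.surjective y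
    rw [← aut_mul, one_zm]
  have h2 := h oneZ
  rwa [zm_one] at h2

theorem one_ne_zero_Z : (oneZ : O8 F) ≠ 0 := by
  intro h
  have := congrFun h 0
  simp at this

theorem aut_smul_one (s : F) {x : O8 F} (h : g.1 x = s • oneZ) : x = s • oneZ := by
  apply g.1.injective
  rw [h, map_smul, aut_one]

theorem aut_tr_norm (x : O8 F) : trZ (g.1 x) = trZ x ∧ normZ (g.1 x) = normZ x := by
  set u := g.1 x with hu
  have h1 : zm u u = trZ x • u - normZ x • oneZ := by
    rw [hu, ← aut_mul, sq_eq x, map_sub, map_smul, map_smul, aut_one]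
  have h2 := sq_eq u
  have h3 : (trZ u - trZ x) • u = (normZ u - normZ x) • oneZ := by
    have h4 : trZ u • u - normZ u • oneZ = trZ x • u - normZ x • oneZ := h2.symm.trans h1
    funext i
    have h5 := congrFun h4 i
    simp only [Pi.sub_apply, Pi.smul_apply, smul_eq_mul] at h5 ⊢
    linear_combination h5
  have htr : trZ u = trZ x := by
    by_contra hne
    have hd : trZ u - trZ x ≠ 0 := sub_ne_zero.2 hne
    have h5 : u = ((trZ u - trZ x)⁻¹ * (normZ u - normZ x)) • oneZ := by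
      rw [mul_smul, ← h3, smul_smul, inv_mul_cancel₀ hd, one_smul]
    obtain ⟨s, hs⟩ : ∃ s : F, u = s • oneZ := ⟨_, h5⟩
    have h6 := aut_smul_one g s (hu.symm.trans hs)
    apply hne
    rw [hs, h6]
  refine ⟨htr, ?_⟩
  rw [htr, sub_self, zero_smul] at h3
  have h7 := congrFun h3 0
  simp only [Pi.zero_apply, Pi.smul_apply, smul_eq_mul, one0, mul_one] at h7
  exact sub_eq_zero.1 h7.symm

theorem aut_norm (x : O8 F) : normZ (g.1 x) = normZ x := (aut_tr_norm g x).2

theorem aut_tr (x : O8 F) : trZ (g.1 x) = trZ x := (aut_tr_norm g x).1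

theorem aut_pol (x y : O8 F) : polZ (g.1 x) (g.1 y) = polZ x y := by
  have h1 := normZ_add (g.1 x) (g.1 y)
  have h2 := normZ_add x y
  rw [← map_add, aut_norm, aut_norm, aut_norm, h2] at h1
  linear_combination -h1

/-- Basic triples. -/
def IsTr (e f h : O8 F) : Prop :=
  trZ e = 0 ∧ normZ e = 0 ∧ trZ f = 0 ∧ normZ f = 0 ∧ polZ e f = -1 ∧
    polZ h e = 0 ∧ polZ h f = 0 ∧ polZ h oneZ = 0 ∧ polZ h (zm e f) = 0 ∧ normZ h = 1

theorem aut_isTr {e f h : O8 F} (hT : IsTr e f h) : IsTr (g.1 e) (g.1 f) (g.1 h) := by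
  obtain ⟨h1, h2, h3, h4, h5, h6, h7, h8, h9, h10⟩ := hT
  refine ⟨?_, ?_, ?_, ?_, ?_, ?_, ?_, ?_, ?_, ?_⟩
  · rw [aut_tr, h1]
  · rw [aut_norm, h2]
  · rw [aut_tr, h3]
  · rw [aut_norm, h4]
  · rw [aut_pol, h5]
  · rw [aut_pol, h6]
  · rw [aut_pol, h7]
  · rw [← aut_one g, aut_pol, h8]
  · rw [← aut_mul, aut_pol, h9]
  · rw [aut_norm, h10]

/-- The set of basic triples. -/
def TrX (F : Type u) [Field F] : Type u := {p : O8 F × O8 F × O8 F // IsTr p.1 p.2.1 p.2.2}

instance : MulAction (AutZ F) (TrX F) where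
  smul g p := ⟨(g.1 p.1.1, g.1 p.1.2.1, g.1 p.1.2.2), aut_isTr g p.2⟩
  one_smul p := rfl
  mul_smul a b p := rfl

theorem zm_zero_left (x : O8 F) : zm 0 x = 0 := by
  apply ext8 <;> simp [zm0, zm1, zm2, zm3, zm4, zm5, zm6, zm7]

theorem zm_zero_right (x : O8 F) : zm x 0 = 0 := by
  apply ext8 <;> simp [zm0, zm1, zm2, zm3, zm4, zm5, zm6, zm7]

theorem zm_sub_right (x y z : O8 F) : zm x (y - z) = zm x y - zm x z := by
  apply ext8 <;> simp only [zm0, zm1, zm2, zm3, zm4, zm5, zm6, zm7, Pi.sub_apply] <;> ring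

theorem zm_sub_left (x y z : O8 F) : zm (x - y) z = zm x z - zm y z := by
  apply ext8 <;> simp only [zm0, zm1, zm2, zm3, zm4, zm5, zm6, zm7, Pi.sub_apply] <;> ring

theorem zm_neg_left (x y : O8 F) : zm (- x) y = - zm x y := by
  apply ext8 <;> simp only [zm0, zm1, zm2, zm3, zm4, zm5, zm6, zm7, Pi.neg_apply] <;> ring

section Table

variable {e f h : O8 F} (hT : IsTr e f h)
include hT

theorem tE_sq : zm e e = 0 := by
  obtain ⟨h1, h2, -⟩ := hT
  rw [sq_eq, h1, h2, zero_smul, zero_smul, sub_zero]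

theorem tF_sq : zm f f = 0 := by
  obtain ⟨-, -, h1, h2, -⟩ := hT
  rw [sq_eq, h1, h2, zero_smul, zero_smul, sub_zero]

theorem tFE : zm f e = oneZ - zm e f := by
  obtain ⟨h1, -, h3, -, h5, -⟩ := hT
  have := zm_add_comm_of_tr h1 h3
  rw [h5, neg_neg, one_smul] at this
  rw [← this]
  simp

theorem tE_eps : zm e (zm e f) = 0 := by
  rw [alt_left, tE_sq hT, zm_zero_left]

theorem tEps_F : zm (zm e f) f = 0 := by
  rw [alt_right, tF_sq hT, zm_zero_right]

/-- `f ε = f`. -/
theorem tF_eps : zm f (zm e f) = f := by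
  have h1 : zm f (zm f e) = 0 := by
    rw [alt_left, tF_sq hT, zm_zero_left]
  rw [tFE hT, zm_sub_right, zm_one] at h1
  exact (sub_eq_zero.1 h1).symm

/-- `ε e = e`. -/
theorem tEps_E : zm (zm e f) e = e := by
  have h1 : zm (zm f e) e = 0 := by
    rw [alt_right, tE_sq hT, zm_zero_right]
  rw [tFE hT, zm_sub_left, one_zm] at h1
  exact (sub_eq_zero.1 h1).symm

theorem tEps_tr : trZ (zm e f) = 1 := by
  obtain ⟨-, -, h3, -, h5, -⟩ := hT
  rw [trZ_zm_of_tr e h3, h5, neg_neg]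

theorem tEps_norm : normZ (zm e f) = 0 := by
  obtain ⟨-, h2, -⟩ := hT
  rw [normZ_zm, h2, zero_mul]

/-- `ε ε = ε`. -/
theorem tEps_sq : zm (zm e f) (zm e f) = zm e f := by
  rw [sq_eq, tEps_tr hT, tEps_norm hT, one_smul, zero_smul, sub_zero]

theorem tBarEps : barZ (zm e f) = oneZ - zm e f := by
  rw [barZ_eq, tEps_tr hT, one_smul]

/-- The Gram entries. -/
theorem g_one_eps : polZ oneZ (zm e f) = 1 := by
  rw [one_polZ, tEps_tr hT]

theorem g_e_eps : polZ e (zm e f) = 0 := by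
  obtain ⟨h1, h2, h3, -⟩ := hT
  have := comp_left e oneZ f
  rw [zm_one, h2, zero_mul] at this
  exact this

theorem g_f_eps : polZ f (zm e f) = 0 := by
  obtain ⟨h1, h2, h3, h4, -⟩ := hT
  have := comp_right f oneZ e
  rw [one_zm, h4, zero_mul] at this
  exact this

theorem g_eps_eps : polZ (zm e f) (zm e f) = 0 := by
  rw [polZ_self, tEps_norm hT, mul_zero]

theorem g_one_e : polZ oneZ e = 0 := by
  rw [one_polZ]
  exact hT.1

theorem g_one_f : polZ oneZ f = 0 := by
  rw [one_polZ]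
  exact hT.2.2.1

theorem g_e_e : polZ e e = 0 := by
  rw [polZ_self, hT.2.1, mul_zero]

theorem g_f_f : polZ f f = 0 := by
  rw [polZ_self, hT.2.2.2.1, mul_zero]

end Table

/-- The span of `1, e, f, ef`, as a predicate. -/
def InQ (e f x : O8 F) : Prop :=
  ∃ a b c d : F, x = a • oneZ + b • e + c • f + d • zm e f

section Q

variable {e f h : O8 F} (hT : IsTr e f h)
include hT

theorem inQ_one : InQ e f oneZ := ⟨1, 0, 0, 0, by simp⟩
theorem inQ_e : InQ e f e := ⟨0, 1, 0, 0, by simp⟩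
theorem inQ_f : InQ e f f := ⟨0, 0, 1, 0, by simp⟩
theorem inQ_eps : InQ e f (zm e f) := ⟨0, 0, 0, 1, by simp⟩

omit hT in
theorem inQ_add {x y : O8 F} (hx : InQ e f x) (hy : InQ e f y) : InQ e f (x + y) := by
  obtain ⟨a, b, c, d, rfl⟩ := hx
  obtain ⟨a', b', c', d', rfl⟩ := hy
  refine ⟨a + a', b + b', c + c', d + d', ?_⟩
  simp only [add_smul]
  abel

omit hT in
theorem inQ_smul {x : O8 F} (s : F) (hx : InQ e f x) : InQ e f (s • x) := by
  obtain ⟨a, b, c, d, rfl⟩ := hx
  refine ⟨s * a, s * b, s * c, s * d, ?_⟩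
  simp only [smul_add, smul_smul]

omit hT in
theorem inQ_zero : InQ e f 0 := ⟨0, 0, 0, 0, by simp⟩

omit hT in
theorem inQ_neg {x : O8 F} (hx : InQ e f x) : InQ e f (- x) := by
  have := inQ_smul (-1) hx
  simpa using this

omit hT in
theorem inQ_sub {x y : O8 F} (hx : InQ e f x) (hy : InQ e f y) : InQ e f (x - y) := by
  rw [sub_eq_add_neg]
  exact inQ_add hx (inQ_neg hy)

/-- If multiplication by `y` preserves the generators, it preserves the span. -/
theorem inQ_mul_of {y : O8 F} (h1 : InQ e f (zm y oneZ)) (h2 : InQ e f (zm y e)) (h3 : InQ e f (zm y f))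
    (h4 : InQ e f (zm y (zm e f))) {x : O8 F} (hx : InQ e f x) : InQ e f (zm y x) := by
  obtain ⟨a, b, c, d, rfl⟩ := hx
  simp only [zm_add, zm_smul]
  exact inQ_add (inQ_add (inQ_add (inQ_smul _ h1) (inQ_smul _ h2)) (inQ_smul _ h3)) (inQ_smul _ h4)

/-- The conjugates of the generators multiply `Q` into itself. -/
theorem inQ_bar_mul {y x : O8 F} (hy : y = oneZ ∨ y = e ∨ y = f ∨ y = zm e f) (hx : InQ e f x) :
    InQ e f (zm (barZ y) x) := by
  obtain ⟨h1, h2, h3, h4, h5, -⟩ := id hT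
  rcases hy with rfl | rfl | rfl | rfl
  · have : barZ (oneZ : O8 F) = oneZ := by
      rw [barZ_eq, trZ_one]
      funext i
      simp only [Pi.sub_apply, Pi.smul_apply, smul_eq_mul]
      ring
    rw [this, one_zm]
    exact hx
  · rw [barZ_of_tr h1, zm_neg_left]
    apply inQ_neg
    apply inQ_mul_of hT _ _ _ _ hx
    · rw [zm_one]; exact inQ_e hT
    · rw [tE_sq hT]; exact inQ_zero
    · exact inQ_eps hT
    · rw [tE_eps hT]; exact inQ_zero
  · rw [barZ_of_tr h3, zm_neg_left]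
    apply inQ_neg
    apply inQ_mul_of hT _ _ _ _ hx
    · rw [zm_one]; exact inQ_f hT
    · rw [tFE hT]; exact inQ_sub (inQ_one hT) (inQ_eps hT)
    · rw [tF_sq hT]; exact inQ_zero
    · rw [tF_eps hT]; exact inQ_f hT
  · rw [tBarEps hT]
    apply inQ_mul_of hT _ _ _ _ hx
    · rw [zm_one]; exact inQ_sub (inQ_one hT) (inQ_eps hT)
    · rw [zm_sub_left, one_zm, tEps_E hT, sub_self]; exact inQ_zero
    · rw [zm_sub_left, one_zm, tEps_F hT, sub_zero]; exact inQ_f hT
    · rw [zm_sub_left, one_zm, tEps_sq hT, sub_self]; exact inQ_zero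

/-- `h` is orthogonal to `Q`. -/
theorem pol_h_inQ {x : O8 F} (hx : InQ e f x) : polZ h x = 0 := by
  obtain ⟨-, -, -, -, -, h6, h7, h8, h9, -⟩ := id hT
  obtain ⟨a, b, c, d, rfl⟩ := hx
  simp only [polZ_add_right, polZ_smul_right, h6, h7, h8, h9]
  ring

/-- Cross terms vanish. -/
theorem pol_cross {x y : O8 F} (hy : y = oneZ ∨ y = e ∨ y = f ∨ y = zm e f) (hx : InQ e f x) :
    polZ (zm y h) x = 0 := by
  rw [adj_left]
  exact pol_h_inQ hT (inQ_bar_mul hT hy hx)

/-- Nondegeneracy on `Q`: an element of `Q` orthogonal to the generators vanishes, in coordinates. -/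
theorem coeffs_of_pol {a b c d : F} {x : O8 F} (hx : x = a • oneZ + b • e + c • f + d • zm e f)
    (h1 : polZ x oneZ = 0) (h2 : polZ x e = 0) (h3 : polZ x f = 0) (h4 : polZ x (zm e f) = 0) :
    a = 0 ∧ b = 0 ∧ c = 0 ∧ d = 0 := by
  obtain ⟨-, -, -, -, h5, -⟩ := id hT
  have e1 := g_one_eps hT
  have e2 := g_e_eps hT
  have e3 := g_f_eps hT
  have e4 := g_eps_eps hT
  have e5 := g_one_e hT
  have e6 := g_one_f hT
  have e7 := g_e_e hT
  have e8 := g_f_f hT
  have e9 : polZ f e = -1 := by rw [polZ_comm]; exact h5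
  have e10 : polZ (oneZ : O8 F) oneZ = 2 := by rw [polZ_self, normZ_one, mul_one]
  subst hx
  simp only [polZ_add_left, polZ_smul_left] at h1 h2 h3 h4
  rw [polZ_comm e oneZ, polZ_comm f oneZ, polZ_comm (zm e f) oneZ, e1, e5, e6, e10] at h1
  rw [polZ_comm (zm e f) e, e2, e5, e7, e9] at h2
  rw [polZ_comm (zm e f) f, e3, e6, e8, h5] at h3
  rw [e1, e2, e3, e4] at h4
  have ha : a = 0 := by linear_combination h4
  have hb : b = 0 := by linear_combination -h3
  have hc : c = 0 := by linear_combination -h2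
  have hd : d = 0 := by
    rw [ha] at h1
    linear_combination h1
  exact ⟨ha, hb, hc, hd⟩

/-- The eight vectors. -/
def vv (e f h : O8 F) : Fin 8 → O8 F :=
  ![oneZ, e, f, zm e f, zm oneZ h, zm e h, zm f h, zm (zm e f) h]

theorem vv_indep : LinearIndependent F (vv e f h) := by
  rw [Fintype.linearIndependent_iff]
  intro c hc
  rw [Fin.sum_univ_eight] at hc
  simp only [vv, Matrix.cons_val] at hc
  -- the two parts
  set A : O8 F := c 0 • oneZ + c 1 • e + c 2 • f + c 3 • zm e f with hA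
  set B : O8 F := c 4 • oneZ + c 5 • e + c 6 • f + c 7 • zm e f with hB
  have hAQ : InQ e f A := ⟨_, _, _, _, hA⟩
  have hBQ : InQ e f B := ⟨_, _, _, _, hB⟩
  have hsum : A + zm B h = 0 := by
    rw [← hc, hA, hB]
    simp only [add_zm, smul_zm]
    abel
  have hN : normZ h = 1 := hT.2.2.2.2.2.2.2.2.2
  have pair1 : ∀ y, (y = oneZ ∨ y = e ∨ y = f ∨ y = zm e f) → polZ A y = 0 := by
    intro y hy
    have h1 : polZ (A + zm B h) y = 0 := by rw [hsum, polZ_zero_left]
    rw [polZ_add_left] at h1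
    have h2 : polZ (zm B h) y = 0 := by
      -- `B h ⊥ y`: expand `B`
      rw [polZ_comm, hB]
      simp only [add_zm, smul_zm, polZ_add_right, polZ_smul_right]
      have hyQ : InQ e f y := by
        rcases hy with rfl | rfl | rfl | rfl
        exacts [inQ_one hT, inQ_e hT, inQ_f hT, inQ_eps hT]
      rw [polZ_comm y (zm oneZ h), polZ_comm y (zm e h), polZ_comm y (zm f h), polZ_comm y (zm (zm e f) h),
        pol_cross hT (Or.inl rfl) hyQ, pol_cross hT (Or.inr (Or.inl rfl)) hyQ,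
        pol_cross hT (Or.inr (Or.inr (Or.inl rfl))) hyQ, pol_cross hT (Or.inr (Or.inr (Or.inr rfl))) hyQ]
      ring
    rw [h2, add_zero] at h1
    exact h1
  have pair2 : ∀ y, (y = oneZ ∨ y = e ∨ y = f ∨ y = zm e f) → polZ B y = 0 := by
    intro y hy
    have h1 : polZ (A + zm B h) (zm y h) = 0 := by rw [hsum, polZ_zero_left]
    rw [polZ_add_left, polZ_comm A, pol_cross hT hy hAQ, zero_add, comp_right, hN, one_mul] at h1
    exact h1
  obtain ⟨c0, c1, c2, c3⟩ := coeffs_of_pol hT hA (pair1 _ (Or.inl rfl)) (pair1 _ (Or.inr (Or.inl rfl)))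
    (pair1 _ (Or.inr (Or.inr (Or.inl rfl)))) (pair1 _ (Or.inr (Or.inr (Or.inr rfl))))
  obtain ⟨c4, c5, c6, c7⟩ := coeffs_of_pol hT hB (pair2 _ (Or.inl rfl)) (pair2 _ (Or.inr (Or.inl rfl)))
    (pair2 _ (Or.inr (Or.inr (Or.inl rfl)))) (pair2 _ (Or.inr (Or.inr (Or.inr rfl))))
  intro i
  fin_cases i
  exacts [c0, c1, c2, c3, c4, c5, c6, c7]

end Q

/-- The action on triples is free. -/
theorem free_action (p : TrX F) (g : AutZ F) (hg : g • p = p) : g = 1 := by
  obtain ⟨⟨e, f, h⟩, hT⟩ := p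
  have h1 : g.1 e = e := congrArg (fun q : TrX F => q.1.1) hg
  have h2 : g.1 f = f := congrArg (fun q : TrX F => q.1.2.1) hg
  have h3 : g.1 h = h := congrArg (fun q : TrX F => q.1.2.2) hg
  have hfix : ∀ i, g.1 (vv e f h i) = vv e f h i := by
    intro i
    fin_cases i
    · exact aut_one g
    · exact h1
    · exact h2
    · show g.1 (zm e f) = zm e f
      rw [aut_mul, h1, h2]
    · show g.1 (zm oneZ h) = zm oneZ h
      rw [aut_mul, aut_one, h3]
    · show g.1 (zm e h) = zm e h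
      rw [aut_mul, h1, h3]
    · show g.1 (zm f h) = zm f h
      rw [aut_mul, h2, h3]
    · show g.1 (zm (zm e f) h) = zm (zm e f) h
      rw [aut_mul, aut_mul, h1, h2, h3]
  have hspan : Submodule.span F (Set.range (vv e f h)) = ⊤ :=
    (vv_indep hT).span_eq_top_of_card_eq_finrank' (by simp)
  apply Subtype.ext
  apply LinearEquiv.ext
  intro x
  have hx : x ∈ Submodule.span F (Set.range (vv e f h)) := by rw [hspan]; trivial
  induction hx using Submodule.span_induction with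
  | mem x hx =>
    obtain ⟨i, rfl⟩ := hx
    exact hfix i
  | zero => simp
  | add x y _ _ hx hy => rw [map_add, hx, hy]; rfl
  | smul c x _ hx => rw [map_smul, hx]; rfl

end Cfsg.Agent.Lib.Char.G2Syl.Triple
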