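import Mathlib
import Cfsg.Agent.Lib.Char.G2Syl.Triple
import Cfsg.Agent.Lib.Char.SylowSq.Arith
import Cfsg.Agent.Lib.Char.SylowSq.Form
import Cfsg.Agent.Lib.Linalg.OrthOrder
import Cfsg.Agent.Lib.Linalg.OrthModels
import Cfsg.Agent.Lib.Linalg.DotCount
import Cfsg.Agent.S0291

/-!
# The number of basic triples and the 2-part of `|G₂(q)|`
-/

set_option autoImplicit false
set_option linter.unusedSectionVars false

namespace Cfsg.Agent.Lib.Char.G2Syl.Count

open Cfsg.Lie QuadraticMap Module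
open Cfsg.Agent.Lib.Char.G2Syl.Zorn Cfsg.Agent.Lib.Char.G2Syl.Triple

universe u

variable {F : Type u} [Field F] [Fintype F]

open _root_.Classical in
/-- The number of solutions of `a b = d`. -/
theorem card_ab (d : F) :
    Nat.card {p : F × F // p.1 * p.2 = d} + (if d = 0 then 0 else Fintype.card F) = 2 * Fintype.card F - 1 := by
  classical
  have hq : 1 ≤ Fintype.card F := Fintype.card_pos
  by_cases hd : d = 0
  · subst hd
    have h1 := Cfsg.Agent.Lib.Linalg.DotCount.card_pairs_zero (F := F) 1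
    have e : {p : F × F // p.1 * p.2 = 0} ≃ {p : (Fin 1 → F) × (Fin 1 → F) // ∑ i, p.1 i * p.2 i = 0} :=
      Equiv.subtypeEquiv ((Equiv.funUnique (Fin 1) F).symm.prodCongr (Equiv.funUnique (Fin 1) F).symm) (fun p => by
        simp)
    rw [Nat.card_congr e, h1]
    simp
    omega
  · have h1 := Cfsg.Agent.Lib.Linalg.DotCount.card_pairs_ne (F := F) 1 hd
    have e : {p : F × F // p.1 * p.2 = d} ≃ {p : (Fin 1 → F) × (Fin 1 → F) // ∑ i, p.1 i * p.2 i = d} :=
      Equiv.subtypeEquiv ((Equiv.funUnique (Fin 1) F).symm.prodCongr (Equiv.funUnique (Fin 1) F).symm) (fun p => by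
        simp)
    rw [Nat.card_congr e, h1]
    simp [hd]
    omega

/-- Perpendicular inside `U`. -/
def perp (U : Submodule F (O8 F)) (u v : O8 F) : Submodule F (O8 F) where
  carrier := {x | x ∈ U ∧ polZ x u = 0 ∧ polZ x v = 0}
  add_mem' := by
    rintro a b ⟨h1, h2, h3⟩ ⟨h4, h5, h6⟩
    refine ⟨U.add_mem h1 h4, ?_, ?_⟩
    · rw [polZ_add_left, h2, h5, add_zero]
    · rw [polZ_add_left, h3, h6, add_zero]
  zero_mem' := ⟨U.zero_mem, polZ_zero_left _, polZ_zero_left _⟩
  smul_mem' := by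
    rintro c a ⟨h1, h2, h3⟩
    refine ⟨U.smul_mem c h1, ?_, ?_⟩
    · rw [polZ_smul_left, h2, mul_zero]
    · rw [polZ_smul_left, h3, mul_zero]

theorem mem_perp {U : Submodule F (O8 F)} {u v x : O8 F} :
    x ∈ perp U u v ↔ x ∈ U ∧ polZ x u = 0 ∧ polZ x v = 0 := Iff.rfl

section hyp

variable (U : Submodule F (O8 F)) {u v : O8 F} (hu : u ∈ U) (hv : v ∈ U) (hNu : normZ u = 0) (hNv : normZ v = 0)
  (huv : polZ u v = 1)

include hu hv hNu hNv huv

/-- The decomposition along a hyperbolic pair. -/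
noncomputable def splitE : U ≃ F × F × perp U u v where
  toFun x := (polZ x.1 v, polZ x.1 u, ⟨x.1 - polZ x.1 v • u - polZ x.1 u • v, by
    have huu : polZ u u = 0 := by rw [polZ_self, hNu, mul_zero]
    have hvv : polZ v v = 0 := by rw [polZ_self, hNv, mul_zero]
    have hvu : polZ v u = 1 := by rw [polZ_comm]; exact huv
    refine ⟨U.sub_mem (U.sub_mem x.2 (U.smul_mem _ hu)) (U.smul_mem _ hv), ?_, ?_⟩
    · simp only [polZ_sub_left, polZ_smul_left, huu, hvu]
      ring
    · simp only [polZ_sub_left, polZ_smul_left, hvv, huv]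
      ring⟩)
  invFun p := ⟨p.1 • u + p.2.1 • v + p.2.2.1, U.add_mem (U.add_mem (U.smul_mem _ hu) (U.smul_mem _ hv)) p.2.2.2.1⟩
  left_inv x := by
    apply Subtype.ext
    simp only
    abel
  right_inv p := by
    have huu : polZ u u = 0 := by rw [polZ_self, hNu, mul_zero]
    have hvv : polZ v v = 0 := by rw [polZ_self, hNv, mul_zero]
    have hvu : polZ v u = 1 := by rw [polZ_comm]; exact huv
    obtain ⟨a, b, w, hw, hw1, hw2⟩ := p
    have h1 : polZ (a • u + b • v + w) v = a := by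
      simp only [polZ_add_left, polZ_smul_left, hvv, huv, hw2]
      ring
    have h2 : polZ (a • u + b • v + w) u = b := by
      simp only [polZ_add_left, polZ_smul_left, huu, hvu, hw1]
      ring
    simp only [h1, h2]
    refine Prod.ext rfl (Prod.ext rfl (Subtype.ext ?_))
    simp only
    abel

theorem split_norm (a b : F) (w : O8 F) (hw1 : polZ w u = 0) (hw2 : polZ w v = 0) :
    normZ (a • u + b • v + w) = a * b + normZ w := by
  simp only [normZ_add, normZ_smul, hNu, hNv, polZ_add_left, polZ_smul_left, polZ_smul_right, huv]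
  rw [polZ_comm u w, polZ_comm v w, hw1, hw2]
  ring

/-- The size relation. -/
theorem card_split : Nat.card U = Fintype.card F ^ 2 * Nat.card (perp U u v) := by
  rw [Nat.card_congr (splitE U hu hv hNu hNv huv), Nat.card_prod, Nat.card_prod, Nat.card_eq_fintype_card (α := F)]
  ring

/-- The count of a level set. -/
theorem card_level (c : F) :
    Nat.card {x : U // normZ x.1 = c} + (Fintype.card F) * Nat.card (perp U u v) =
      (2 * Fintype.card F - 1) * Nat.card (perp U u v) +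
        Fintype.card F * Nat.card {w : perp U u v // normZ w.1 = c} := by
  classical
  have : Finite (perp U u v) := inferInstance
  let _ : Fintype (perp U u v) := Fintype.ofFinite _
  -- fibres over `w`
  let E1 : {x : U // normZ x.1 = c} ≃ {p : F × F × perp U u v // p.1 * p.2.1 + normZ p.2.2.1 = c} :=
    (Equiv.subtypeEquiv (splitE U hu hv hNu hNv huv) (fun x => by
      have h1 : normZ x.1 = normZ ((splitE U hu hv hNu hNv huv).symm (splitE U hu hv hNu hNv huv x)).1 := by
        rw [Equiv.symm_apply_apply]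
      rw [h1]
      generalize splitE U hu hv hNu hNv huv x = p
      obtain ⟨a, b, w⟩ := p
      show normZ (a • u + b • v + w.1) = c ↔ _
      rw [split_norm U hu hv hNu hNv huv a b w.1 w.2.2.1 w.2.2.2]))
  let E2 : {p : F × F × perp U u v // p.1 * p.2.1 + normZ p.2.2.1 = c} ≃
      Σ w : perp U u v, {p : F × F // p.1 * p.2 = c - normZ w.1} :=
    { toFun := fun x => ⟨x.1.2.2, ⟨(x.1.1, x.1.2.1), by
        have := x.2
        show x.1.1 * x.1.2.1 = c - normZ x.1.2.2.1
        linear_combination this⟩⟩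
      invFun := fun p => ⟨(p.2.1.1, p.2.1.2, p.1), by
        have := p.2.2
        show p.2.1.1 * p.2.1.2 + normZ p.1.1 = c
        linear_combination this⟩
      left_inv := fun x => rfl
      right_inv := fun p => rfl }
  rw [Nat.card_congr (E1.trans E2), Nat.card_sigma]
  -- evaluate the sum
  have h2 : ∀ w : perp U u v, Nat.card {p : F × F // p.1 * p.2 = c - normZ w.1} + Fintype.card F =
      (2 * Fintype.card F - 1) + (if normZ w.1 = c then Fintype.card F else 0) := by
    intro w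
    have h3 := card_ab (c - normZ w.1)
    by_cases hw : normZ w.1 = c
    · rw [if_pos hw]
      rw [if_pos (by rw [hw, sub_self])] at h3
      omega
    · rw [if_neg hw]
      rw [if_neg (fun h => hw (sub_eq_zero.1 h).symm)] at h3
      omega
  have h4 := Finset.sum_congr (rfl : (Finset.univ : Finset (perp U u v)) = Finset.univ) (fun w _ => h2 w)
  rw [Finset.sum_add_distrib, Finset.sum_add_distrib, Finset.sum_const, Finset.sum_const, Finset.card_univ,
    ← Nat.card_eq_fintype_card, Finset.sum_ite, Finset.sum_const, Finset.sum_const_zero, add_zero, smul_eq_mul,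
    smul_eq_mul, smul_eq_mul] at h4
  have h5 : (Finset.univ.filter fun w : perp U u v => normZ w.1 = c).card =
      Nat.card {w : perp U u v // normZ w.1 = c} := by
    rw [Nat.card_eq_fintype_card, Fintype.card_subtype]
  rw [h5] at h4
  rw [mul_comm (Fintype.card F) (Nat.card (perp U u v)), mul_comm (2 * Fintype.card F - 1),
    mul_comm (Fintype.card F) (Nat.card {w : perp U u v // normZ w.1 = c})]
  exact h4

end hyp

/-! ### The level set of the norm on the whole space -/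

/-- The pair coordinates. -/
def toPairs : O8 F ≃ (Fin 4 → F) × (Fin 4 → F) where
  toFun x := (![x 0, x 1, x 2, x 3], ![x 7, - x 4, - x 5, - x 6])
  invFun p := ![p.1 0, p.1 1, p.1 2, p.1 3, - p.2 1, - p.2 2, - p.2 3, p.2 0]
  left_inv x := by
    apply ext8 <;> simp
  right_inv p := by
    obtain ⟨a, b⟩ := p
    refine Prod.ext ?_ ?_
    · funext i
      fin_cases i <;> simp
    · funext i
      fin_cases i <;> simp

theorem card_O8 : Nat.card (O8 F) = Fintype.card F ^ 8 := by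
  have : Nat.card (Fin 8 → F) = Fintype.card F ^ 8 := by
    rw [Nat.card_eq_fintype_card, Fintype.card_fun, Fintype.card_fin]
  exact this

/-- The number of norm-one vectors. -/
theorem card_norm_one : Nat.card {x : O8 F // normZ x = 1} + Fintype.card F ^ 3 = Fintype.card F ^ 7 := by
  have h1 := Cfsg.Agent.Lib.Linalg.DotCount.card_pairs_ne (F := F) 4 (one_ne_zero)
  let E : {x : O8 F // normZ x = 1} ≃ {p : (Fin 4 → F) × (Fin 4 → F) // ∑ i, p.1 i * p.2 i = 1} :=
    Equiv.subtypeEquiv toPairs (fun x => by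
      simp only [Fin.sum_univ_four, toPairs, Equiv.coe_fn_mk, normZ]
      simp only [Matrix.cons_val]
      have : x 0 * x 7 + x 1 * -x 4 + x 2 * -x 5 + x 3 * -x 6 = x 0 * x 7 - (x 1 * x 4 + x 2 * x 5 + x 3 * x 6) := by ring
      rw [this])
  rw [Nat.card_congr E, h1]
  have hq : 1 ≤ Fintype.card F ^ 4 := Nat.one_le_pow _ _ Fintype.card_pos
  obtain ⟨r, hr⟩ : ∃ r, Fintype.card F ^ 4 = r + 1 := ⟨Fintype.card F ^ 4 - 1, by omega⟩
  simp only [hr, Nat.add_sub_cancel, show 4 - 1 = 3 from rfl]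
  calc r * Fintype.card F ^ 3 + Fintype.card F ^ 3 = (r + 1) * Fintype.card F ^ 3 := by ring
    _ = Fintype.card F ^ 4 * Fintype.card F ^ 3 := by rw [hr]
    _ = _ := by ring

section fib

variable {e f : O8 F} (he1 : trZ e = 0) (he2 : normZ e = 0) (hf1 : trZ f = 0) (hf2 : normZ f = 0) (hef : polZ e f = -1)

include he1 he2 hf1 hf2 hef

/-- The number of completions of a pair `e, f` to a basic triple. -/
theorem card_fib :
    Nat.card {h : O8 F // polZ h e = 0 ∧ polZ h f = 0 ∧ polZ h oneZ = 0 ∧ polZ h (zm e f) = 0 ∧ normZ h = 1} +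
      Fintype.card F = Fintype.card F ^ 3 := by
  classical
  set q := Fintype.card F with hq
  have hq0 : 0 < q := Fintype.card_pos
  -- the idempotent
  set ε := zm e f with hε
  have hεn : normZ ε = 0 := by rw [hε, normZ_zm, he2, zero_mul]
  have hεt : trZ ε = 1 := by rw [hε, trZ_zm_of_tr e hf1, hef, neg_neg]
  have hεe : polZ ε e = 0 := by
    have := comp_left e oneZ f
    rw [zm_one, he2, zero_mul] at this
    rw [polZ_comm]
    exact this
  have hεf : polZ ε f = 0 := by
    have := comp_right f oneZ e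
    rw [one_zm, hf2, zero_mul] at this
    rw [polZ_comm]
    exact this
  set ε' : O8 F := oneZ - ε with hε'
  have h1e : polZ oneZ e = 0 := by rw [one_polZ]; exact he1
  have h1f : polZ oneZ f = 0 := by rw [one_polZ]; exact hf1
  have hε'n : normZ ε' = 0 := by
    rw [hε', normZ_sub, normZ_one, hεn, one_polZ, hεt]
    ring
  have hε'e : polZ ε' e = 0 := by rw [hε', polZ_sub_left, h1e, hεe, sub_zero]
  have hε'f : polZ ε' f = 0 := by rw [hε', polZ_sub_left, h1f, hεf, sub_zero]
  have hεε' : polZ ε ε' = 1 := by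
    rw [hε', polZ_sub_right, polZ_one, hεt, polZ_self, hεn]
    ring
  -- the subspaces
  let V0 : Submodule F (O8 F) := ⊤
  have hv : polZ e (-f) = 1 := by rw [polZ_neg_right, hef, neg_neg]
  have hNv : normZ (-f) = 0 := by rw [normZ_neg, hf2]
  let V1 := perp V0 e (-f)
  have hεV : ε ∈ V1 := ⟨trivial, hεe, by rw [polZ_neg_right, hεf, neg_zero]⟩
  have hε'V : ε' ∈ V1 := ⟨trivial, hε'e, by rw [polZ_neg_right, hε'f, neg_zero]⟩
  let V2 := perp V1 ε ε'
  have hc0 : Nat.card V0 = q ^ 8 :=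
    (Nat.card_congr (Submodule.topEquiv (R := F) (M := O8 F)).toEquiv).trans card_O8
  have hc1 : Nat.card V0 = q ^ 2 * Nat.card V1 :=
    card_split V0 (u := e) (v := -f) trivial trivial he2 hNv hv
  have hc2 : Nat.card V1 = q ^ 2 * Nat.card V2 :=
    card_split V1 hεV hε'V hεn hε'n hεε'
  have hV1 : Nat.card V1 = q ^ 6 := by
    apply Nat.eq_of_mul_eq_mul_left (pow_pos hq0 2)
    rw [← hc1, hc0]
    ring
  have hV2 : Nat.card V2 = q ^ 4 := by
    apply Nat.eq_of_mul_eq_mul_left (pow_pos hq0 2)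
    rw [← hc2, hV1]
    ring
  have hl0 : Nat.card {x : V0 // normZ x.1 = 1} + q * Nat.card V1 =
      (2 * q - 1) * Nat.card V1 + q * Nat.card {w : V1 // normZ w.1 = 1} :=
    card_level V0 (u := e) (v := -f) trivial trivial he2 hNv hv 1
  have hl1 : Nat.card {x : V1 // normZ x.1 = 1} + q * Nat.card V2 =
      (2 * q - 1) * Nat.card V2 + q * Nat.card {w : V2 // normZ w.1 = 1} :=
    card_level V1 hεV hε'V hεn hε'n hεε' 1
  have hn0 : Nat.card {x : V0 // normZ x.1 = 1} = Nat.card {x : O8 F // normZ x = 1} :=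
    Nat.card_congr
      { toFun := fun x => ⟨x.1.1, x.2⟩
        invFun := fun x => ⟨⟨x.1, trivial⟩, x.2⟩
        left_inv := fun x => rfl
        right_inv := fun x => rfl }
  have hfib : Nat.card {h : O8 F // polZ h e = 0 ∧ polZ h f = 0 ∧ polZ h oneZ = 0 ∧ polZ h ε = 0 ∧ normZ h = 1} =
      Nat.card {w : V2 // normZ w.1 = 1} :=
    Nat.card_congr
      { toFun := fun x => ⟨⟨x.1, ⟨⟨trivial, x.2.1, by rw [polZ_neg_right, x.2.2.1, neg_zero]⟩, x.2.2.2.2.1, by
            rw [hε', polZ_sub_right, x.2.2.2.1, x.2.2.2.2.1, sub_zero]⟩⟩, x.2.2.2.2.2⟩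
        invFun := fun x => ⟨x.1.1, by
          obtain ⟨⟨y, ⟨h1, h2, h3⟩, h4, h5⟩, h6⟩ := x
          refine ⟨h2, ?_, ?_, h4, h6⟩
          · rw [polZ_neg_right, neg_eq_zero] at h3
            exact h3
          · rw [hε', polZ_sub_right, h4, sub_zero] at h5
            exact h5⟩
        left_inv := fun x => rfl
        right_inv := fun x => rfl }
  rw [hfib]
  have hn := card_norm_one (F := F)
  rw [← hq] at hn
  rw [hn0, hV1] at hl0
  rw [hV2] at hl1
  set n0 := Nat.card {x : O8 F // normZ x = 1}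
  set n1 := Nat.card {x : V1 // normZ x.1 = 1}
  set n2 := Nat.card {w : V2 // normZ w.1 = 1}
  obtain ⟨r, hr⟩ : ∃ r, 2 * q - 1 = r := ⟨_, rfl⟩
  have hr' : r + 1 = 2 * q := by omega
  rw [hr] at hl0 hl1
  have hqZ : (q : ℤ) ≠ 0 := by exact_mod_cast hq0.ne'
  have hnZ : (n0 : ℤ) + (q : ℤ) ^ 3 = (q : ℤ) ^ 7 := by exact_mod_cast hn
  have hl0Z : (n0 : ℤ) + q * q ^ 6 = r * q ^ 6 + q * n1 := by exact_mod_cast hl0
  have hl1Z : (n1 : ℤ) + q * q ^ 4 = r * q ^ 4 + q * n2 := by exact_mod_cast hl1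
  have hrZ : (r : ℤ) = 2 * q - 1 := by
    have : (r : ℤ) + 1 = 2 * q := by exact_mod_cast hr'
    linarith
  rw [hrZ] at hl0Z hl1Z
  have h5 : (n1 : ℤ) + (q : ℤ) ^ 2 = (q : ℤ) ^ 5 := by
    apply mul_left_cancel₀ hqZ
    linear_combination (-1 : ℤ) * hl0Z + hnZ
  have h6 : (n2 : ℤ) + (q : ℤ) = (q : ℤ) ^ 3 := by
    apply mul_left_cancel₀ hqZ
    linear_combination (-1 : ℤ) * hl1Z + h5
  exact_mod_cast h6

end fib

/-! ### Counting basic triples -/

/-- `V₇ → O8`. -/
def iotaV (v : Unit ⊕ (Fin 3 ⊕ Fin 3) → F) : O8 F :=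
  ![v (.inl ()), v (.inr (.inl 0)), v (.inr (.inl 1)), v (.inr (.inl 2)), v (.inr (.inr 0)), v (.inr (.inr 1)),
    v (.inr (.inr 2)), - v (.inl ())]

/-- `O8 → V₇`. -/
def kappaV (x : O8 F) : Unit ⊕ (Fin 3 ⊕ Fin 3) → F :=
  Sum.elim (fun _ => x 0) (Sum.elim ![x 1, x 2, x 3] ![x 4, x 5, x 6])

theorem kappa_iota (v : Unit ⊕ (Fin 3 ⊕ Fin 3) → F) : kappaV (iotaV v) = v := by
  funext s
  rcases s with u | (i | i)
  · rfl
  · fin_cases i <;> rfl
  · fin_cases i <;> rfl

theorem iota_kappa {x : O8 F} (hx : trZ x = 0) : iotaV (kappaV x) = x := by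
  have h7 : - x 0 = x 7 := by
    have : x 0 + x 7 = 0 := hx
    linear_combination -this
  apply ext8 <;> simp [iotaV, kappaV, h7]

theorem tr_iota (v : Unit ⊕ (Fin 3 ⊕ Fin 3) → F) : trZ (iotaV v) = 0 := by
  simp [trZ, iotaV]

theorem norm_iota (v : Unit ⊕ (Fin 3 ⊕ Fin 3) → F) : normZ (iotaV v) = - quadFormOdd 3 F v := by
  simp only [normZ, iotaV, quadFormOdd, Fin.sum_univ_three]
  simp only [Matrix.cons_val]
  ring

theorem pol_iota (u v : Unit ⊕ (Fin 3 ⊕ Fin 3) → F) : polZ (iotaV u) (iotaV v) =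
    - polar (Cfsg.Agent.Lib.Linalg.OrthModels.oddQ 3 F) u v := by
  simp only [polar, polZ, iotaV, Cfsg.Agent.Lib.Linalg.OrthModels.oddQ_apply, quadFormOdd, Fin.sum_univ_three,
    Pi.add_apply]
  simp only [Matrix.cons_val]
  ring

/-- Pairs with trace zero. -/
noncomputable def trEquiv : TrX F ≃ Σ p : Cfsg.Agent.Lib.Linalg.OrthOrder.HypP (Cfsg.Agent.Lib.Linalg.OrthModels.oddQ 3 F),
    {h : O8 F // polZ h (iotaV p.1.1) = 0 ∧ polZ h (iotaV p.1.2) = 0 ∧ polZ h oneZ = 0 ∧
      polZ h (zm (iotaV p.1.1) (iotaV p.1.2)) = 0 ∧ normZ h = 1} where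
  toFun x := by
    obtain ⟨⟨e, f, h⟩, h1, h2, h3, h4, h5, h6, h7, h8, h9, h10⟩ := x
    have he := iota_kappa h1
    have hf := iota_kappa h3
    refine ⟨⟨(kappaV e, kappaV f), ?_, ?_, ?_⟩, ⟨h, ?_⟩⟩
    · show quadFormOdd 3 F (kappaV e) = 0
      have := norm_iota (kappaV e)
      rw [he, h2] at this
      exact neg_eq_zero.1 this.symm
    · show quadFormOdd 3 F (kappaV f) = 0
      have := norm_iota (kappaV f)
      rw [hf, h4] at this
      exact neg_eq_zero.1 this.symm
    · have := pol_iota (kappaV e) (kappaV f)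
      rw [he, hf, h5] at this
      exact neg_inj.1 this.symm
    · simp only [he, hf]
      exact ⟨h6, h7, h8, h9, h10⟩
  invFun p := ⟨(iotaV p.1.1.1, iotaV p.1.1.2, p.2.1), by
    refine ⟨tr_iota _, ?_, tr_iota _, ?_, ?_, p.2.2.1, p.2.2.2.1, p.2.2.2.2.1, p.2.2.2.2.2.1, p.2.2.2.2.2.2⟩
    · rw [norm_iota]
      have : quadFormOdd 3 F p.1.1.1 = 0 := p.1.2.1
      rw [this, neg_zero]
    · rw [norm_iota]
      have : quadFormOdd 3 F p.1.1.2 = 0 := p.1.2.2.1
      rw [this, neg_zero]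
    · rw [pol_iota, p.1.2.2.2]⟩
  left_inv x := by
    obtain ⟨⟨e, f, h⟩, h1, h2, h3, h4, h5, h6, h7, h8, h9, h10⟩ := x
    apply Subtype.ext
    show (iotaV (kappaV e), iotaV (kappaV f), h) = (e, f, h)
    rw [iota_kappa h1, iota_kappa h3]
  right_inv p := by
    obtain ⟨⟨⟨v, w⟩, h1, h2, h3⟩, ⟨h, h4⟩⟩ := p
    have e1 : kappaV (iotaV v) = v := kappa_iota v
    have e2 : kappaV (iotaV w) = w := kappa_iota w
    exact Sigma.subtype_ext (Subtype.ext (Prod.ext e1 e2)) rfl

/-- The number of basic triples. -/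
theorem card_TrX (hF : Odd (Fintype.card F)) :
    Nat.card (TrX F) = (Fintype.card F ^ 6 - 1) * Fintype.card F ^ 5 * (Fintype.card F ^ 3 - Fintype.card F) := by
  classical
  have h2 : (2 : F) ≠ 0 := Cfsg.Agent.Lib.Char.SylowSq.Form.two_ne_zero_of_odd hF
  have hdim : Module.finrank F (Unit ⊕ (Fin 3 ⊕ Fin 3) → F) = 5 + 2 := by
    simp
  have h1 := Cfsg.Agent.Lib.Linalg.OrthOrder.card_hypP
    (Cfsg.Agent.Lib.Linalg.OrthModels.polarNondeg_oddQ 3 h2) (q := Fintype.card F) (n := 5)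
    (Nat.card_eq_fintype_card) hdim
  have h3 : Nat.card {v : Unit ⊕ (Fin 3 ⊕ Fin 3) → F // (Cfsg.Agent.Lib.Linalg.OrthModels.oddQ 3 F) v = 0} =
      Fintype.card F ^ 6 := Cfsg.Agent.S0291.result rfl hF 3
  rw [h3] at h1
  have : Finite (Cfsg.Agent.Lib.Linalg.OrthOrder.HypP (Cfsg.Agent.Lib.Linalg.OrthModels.oddQ 3 F)) :=
    Finite.of_injective (fun p => p.1) Subtype.val_injective
  let _ : Fintype (Cfsg.Agent.Lib.Linalg.OrthOrder.HypP (Cfsg.Agent.Lib.Linalg.OrthModels.oddQ 3 F)) :=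
    Fintype.ofFinite _
  rw [Nat.card_congr trEquiv, Nat.card_sigma]
  have h4 : ∀ p : Cfsg.Agent.Lib.Linalg.OrthOrder.HypP (Cfsg.Agent.Lib.Linalg.OrthModels.oddQ 3 F),
      Nat.card {h : O8 F // polZ h (iotaV p.1.1) = 0 ∧ polZ h (iotaV p.1.2) = 0 ∧ polZ h oneZ = 0 ∧
        polZ h (zm (iotaV p.1.1) (iotaV p.1.2)) = 0 ∧ normZ h = 1} = Fintype.card F ^ 3 - Fintype.card F := by
    intro p
    have := card_fib (e := iotaV p.1.1) (f := iotaV p.1.2) (tr_iota _)
      (by
        rw [norm_iota]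
        have : quadFormOdd 3 F p.1.1 = 0 := p.2.1
        rw [this, neg_zero]) (tr_iota _)
      (by
        rw [norm_iota]
        have : quadFormOdd 3 F p.1.2 = 0 := p.2.2.1
        rw [this, neg_zero])
      (by rw [pol_iota, p.2.2.2])
    omega
  simp only [h4, Finset.sum_const, Finset.card_univ, smul_eq_mul]
  rw [← Nat.card_eq_fintype_card, h1]

/-- A free action: the order of the group divides the size of the set. -/
theorem card_dvd_of_free {G X : Type*} [Group G] [MulAction G X] [Finite G] [Finite X]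
    (h : ∀ (x : X) (g : G), g • x = x → g = 1) : Nat.card G ∣ Nat.card X := by
  classical
  have : Finite (MulAction.orbitRel.Quotient G X) := inferInstance
  let _ : Fintype (MulAction.orbitRel.Quotient G X) := Fintype.ofFinite _
  rw [Nat.card_congr (MulAction.selfEquivSigmaOrbits G X), Nat.card_sigma]
  apply Finset.dvd_sum
  intro ω _
  have h1 : MulAction.stabilizer G ω.out = ⊥ := by
    ext g
    rw [MulAction.mem_stabilizer_iff, Subgroup.mem_bot]
    exact ⟨h _ g, fun hg => by rw [hg, one_smul]⟩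
  have h2 : Nat.card (MulAction.orbit G ω.out) = Nat.card (G ⧸ MulAction.stabilizer G ω.out) :=
    Nat.card_congr (MulAction.orbitEquivQuotientStabilizer G ω.out)
  have h3 := Subgroup.card_eq_card_quotient_mul_card_subgroup (MulAction.stabilizer G ω.out)
  have h4 : Nat.card (MulAction.stabilizer G ω.out) = 1 := by
    rw [h1]
    exact Subgroup.card_bot
  rw [h4, mul_one] at h3
  rw [h2, h3]

/-- The 2-part of the order of `G₂(q)`. -/
theorem v2_card_AutZ (hF : Odd (Fintype.card F)) :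
    Cfsg.Agent.Lib.Char.SylowSq.Arith.v2 (Nat.card (AutZ F)) ≤
      2 * Cfsg.Agent.Lib.Char.SylowSq.Arith.v2 (Fintype.card F ^ 2 - 1) := by
  classical
  set q := Fintype.card F with hq
  have hq1 : 1 < q := Fintype.one_lt_card
  have hO : Finite (O8 F) := inferInstance
  have hA : Finite (AutZ F) :=
    Finite.of_injective (fun g : AutZ F => ((g.1 : O8 F ≃ₗ[F] O8 F) : O8 F → O8 F)) (fun a b hab => by
      apply Subtype.ext
      exact DFunLike.coe_injective hab)
  have hT : Finite (TrX F) :=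
    Finite.of_injective (fun p : TrX F => p.1) Subtype.val_injective
  have hfree : Nat.card (AutZ F) ∣ Nat.card (TrX F) :=
    card_dvd_of_free (fun x g hg => free_action x g hg)
  have hc := card_TrX hF
  rw [← hq] at hc
  have hq0 : q ≠ 0 := by omega
  have h6 : 1 < q ^ 6 := Nat.one_lt_pow (by norm_num) hq1
  have h22 : 1 < q ^ 2 := Nat.one_lt_pow (by norm_num) hq1
  have hq3 : q ^ 3 - q = q * (q ^ 2 - 1) := by
    rw [Nat.mul_sub, mul_one]
    ring_nf
  have hne : (q ^ 6 - 1) * q ^ 5 * (q ^ 3 - q) ≠ 0 := by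
    rw [hq3]
    refine mul_ne_zero (mul_ne_zero (by omega) (pow_ne_zero _ hq0)) (mul_ne_zero hq0 (by omega))
  rw [hc] at hfree
  have hA0 : Nat.card (AutZ F) ≠ 0 := Nat.card_pos.ne'
  have h1 := (Nat.factorization_le_iff_dvd hA0 hne).2 hfree 2
  have h7 : Cfsg.Agent.Lib.Char.SylowSq.Arith.v2 (q ^ 6 - 1) =
      Cfsg.Agent.Lib.Char.SylowSq.Arith.v2 (q ^ 2 - 1) := by
    have := Cfsg.Agent.Lib.Char.SylowSq.Arith.v2_pow_two_mul hF hq1 (i := 3) (by norm_num)
    rw [show 2 * 3 = 6 from rfl, Cfsg.Agent.Lib.Char.SylowSq.Arith.v2_odd (n := 3) (by decide), add_zero] at this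
    exact this
  have h8 : Cfsg.Agent.Lib.Char.SylowSq.Arith.v2 ((q ^ 6 - 1) * q ^ 5 * (q ^ 3 - q)) =
      2 * Cfsg.Agent.Lib.Char.SylowSq.Arith.v2 (q ^ 2 - 1) := by
    rw [hq3, Cfsg.Agent.Lib.Char.SylowSq.Arith.v2_mul (mul_ne_zero (by omega) (pow_ne_zero _ hq0))
        (mul_ne_zero hq0 (by omega)), Cfsg.Agent.Lib.Char.SylowSq.Arith.v2_mul (by omega) (pow_ne_zero _ hq0),
      Cfsg.Agent.Lib.Char.SylowSq.Arith.v2_mul hq0 (by omega), h7, Cfsg.Agent.Lib.Char.SylowSq.Arith.v2_q_pow hF,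
      Cfsg.Agent.Lib.Char.SylowSq.Arith.v2_odd hF]
    ring
  rw [← h8]
  exact h1

end Cfsg.Agent.Lib.Char.G2Syl.Count
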