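import Mathlib
import Cfsg.Agent.Lib.Char.G2Syl.Abs
import Cfsg.Agent.Lib.Char.G2Syl.Count
import Cfsg.Agent.Lib.Char.SylowSq.Plane
import Cfsg.Agent.Lib.Char.SylowSq.Form

/-!
# The normalizer of the "circle torus" in `GL₂`
-/

set_option autoImplicit false
set_option linter.unusedSectionVars false

namespace Cfsg.Agent.Lib.Char.G2Syl.NT

open Matrix Cfsg.Agent.Lib.Char.G2Syl.Abs Cfsg.Agent.Lib.Char.SylowSq.Arith

universe u

variable {F : Type u} [Field F]

/-- `2 × 2` matrices. -/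
abbrev M2 (F : Type u) [Field F] := Matrix (Fin 2) (Fin 2) F

theorem m2_ext {A B : M2 F} (h00 : A 0 0 = B 0 0) (h01 : A 0 1 = B 0 1) (h10 : A 1 0 = B 1 0)
    (h11 : A 1 1 = B 1 1) : A = B := by
  ext i j
  fin_cases i <;> fin_cases j <;> assumption

section mul

variable (A B : M2 F)

theorem mul00 : (A * B) 0 0 = A 0 0 * B 0 0 + A 0 1 * B 1 0 := by
  simp [Matrix.mul_apply, Fin.sum_univ_two]

theorem mul01 : (A * B) 0 1 = A 0 0 * B 0 1 + A 0 1 * B 1 1 := by
  simp [Matrix.mul_apply, Fin.sum_univ_two]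

theorem mul10 : (A * B) 1 0 = A 1 0 * B 0 0 + A 1 1 * B 1 0 := by
  simp [Matrix.mul_apply, Fin.sum_univ_two]

theorem mul11 : (A * B) 1 1 = A 1 0 * B 0 1 + A 1 1 * B 1 1 := by
  simp [Matrix.mul_apply, Fin.sum_univ_two]

theorem det2 : A.det = A 0 0 * A 1 1 - A 0 1 * A 1 0 := Matrix.det_fin_two A

end mul

/-- The element of order 4. -/
def i0 : M2 F := !![0, -1; 1, 0]

@[simp] theorem i0_00 : (i0 : M2 F) 0 0 = 0 := rfl
@[simp] theorem i0_01 : (i0 : M2 F) 0 1 = -1 := rfl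
@[simp] theorem i0_10 : (i0 : M2 F) 1 0 = 1 := rfl
@[simp] theorem i0_11 : (i0 : M2 F) 1 1 = 0 := rfl

theorem form_T {g : M2 F} (h : g * i0 = i0 * g) : g 1 1 = g 0 0 ∧ g 1 0 = - g 0 1 := by
  have h00 := congrFun (congrFun h 0) 0
  have h01 := congrFun (congrFun h 0) 1
  simp only [mul00, mul01, i0_00, i0_01, i0_10, i0_11] at h00 h01
  constructor
  · linear_combination h01
  · linear_combination h00

theorem form_R {g : M2 F} (h : g * i0 = -(i0 * g)) : g 1 1 = - g 0 0 ∧ g 1 0 = g 0 1 := by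
  have h00 := congrFun (congrFun h 0) 0
  have h01 := congrFun (congrFun h 0) 1
  simp only [Matrix.neg_apply, mul00, mul01, i0_00, i0_01, i0_10, i0_11] at h00 h01
  constructor
  · linear_combination -h01
  · linear_combination -h00

theorem of_form_T {g : M2 F} (h1 : g 1 1 = g 0 0) (h2 : g 1 0 = - g 0 1) : g * i0 = i0 * g := by
  apply m2_ext <;> simp only [mul00, mul01, mul10, mul11, i0_00, i0_01, i0_10, i0_11, h1, h2] <;> ring

theorem of_form_R {g : M2 F} (h1 : g 1 1 = - g 0 0) (h2 : g 1 0 = g 0 1) : g * i0 = -(i0 * g) := by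
  apply m2_ext <;> simp only [Matrix.neg_apply, mul00, mul01, mul10, mul11, i0_00, i0_01, i0_10, i0_11, h1, h2] <;> ring

/-- The normalizer of the torus. -/
def NT (F : Type u) [Field F] : Subgroup (GL (Fin 2) F) where
  carrier := {g | g.1 * i0 = i0 * g.1 ∨ g.1 * i0 = -(i0 * g.1)}
  mul_mem' := by
    rintro a b (ha | ha) (hb | hb)
    · left
      show a.1 * b.1 * i0 = i0 * (a.1 * b.1)
      rw [mul_assoc, hb, ← mul_assoc, ha, mul_assoc]
    · right
      show a.1 * b.1 * i0 = -(i0 * (a.1 * b.1))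
      rw [mul_assoc, hb, mul_neg, ← mul_assoc, ha, mul_assoc]
    · right
      show a.1 * b.1 * i0 = -(i0 * (a.1 * b.1))
      rw [mul_assoc, hb, ← mul_assoc, ha, neg_mul, mul_assoc]
    · left
      show a.1 * b.1 * i0 = i0 * (a.1 * b.1)
      rw [mul_assoc, hb, mul_neg, ← mul_assoc, ha, neg_mul, neg_neg, mul_assoc]
  one_mem' := by
    left
    simp
  inv_mem' := by
    rintro a (ha | ha)
    · left
      show a⁻¹.1 * i0 = i0 * a⁻¹.1
      have h1 : a.1 * a⁻¹.1 = 1 := a.mul_inv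
      have h2 : a⁻¹.1 * a.1 = 1 := a.inv_mul
      calc a⁻¹.1 * i0 = a⁻¹.1 * i0 * (a.1 * a⁻¹.1) := by rw [h1, mul_one]
        _ = a⁻¹.1 * (i0 * a.1) * a⁻¹.1 := by simp only [mul_assoc]
        _ = a⁻¹.1 * (a.1 * i0) * a⁻¹.1 := by rw [ha]
        _ = (a⁻¹.1 * a.1) * i0 * a⁻¹.1 := by simp only [mul_assoc]
        _ = i0 * a⁻¹.1 := by rw [h2, one_mul]
    · right
      show a⁻¹.1 * i0 = -(i0 * a⁻¹.1)
      have h1 : a.1 * a⁻¹.1 = 1 := a.mul_inv
      have h2 : a⁻¹.1 * a.1 = 1 := a.inv_mul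
      have h3 : i0 * a.1 = -(a.1 * i0) := by rw [ha, neg_neg]
      calc a⁻¹.1 * i0 = a⁻¹.1 * i0 * (a.1 * a⁻¹.1) := by rw [h1, mul_one]
        _ = a⁻¹.1 * (i0 * a.1) * a⁻¹.1 := by simp only [mul_assoc]
        _ = a⁻¹.1 * (-(a.1 * i0)) * a⁻¹.1 := by rw [h3]
        _ = -((a⁻¹.1 * a.1) * i0 * a⁻¹.1) := by simp only [mul_assoc, mul_neg, neg_mul]
        _ = -(i0 * a⁻¹.1) := by rw [h2, one_mul]

theorem not_both (h2 : (2 : F) ≠ 0) (g : GL (Fin 2) F) (h : g.1 * i0 = i0 * g.1) (h' : g.1 * i0 = -(i0 * g.1)) :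
    False := by
  obtain ⟨a1, a2⟩ := form_T h
  obtain ⟨b1, b2⟩ := form_R h'
  have h00 : g.1 0 0 = 0 := by
    have : (2 : F) * g.1 0 0 = 0 := by
      rw [a1] at b1
      linear_combination b1
    exact (mul_eq_zero.1 this).resolve_left h2
  have h01 : g.1 0 1 = 0 := by
    have : (2 : F) * g.1 0 1 = 0 := by
      rw [a2] at b2
      linear_combination -b2
    exact (mul_eq_zero.1 this).resolve_left h2
  have hd : g.1.det = 0 := by
    rw [det2, h00, h01]
    ring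
  have hne : IsUnit g.1.det := (Matrix.isUnit_iff_isUnit_det _).1 g.isUnit
  rw [hd] at hne
  exact not_isUnit_zero hne

open scoped _root_.Classical in
/-- The sign character. -/
noncomputable def chi (h2 : (2 : F) ≠ 0) : NT F →* ℤˣ :=
  MonoidHom.mk' (fun g => if g.1.1 * i0 = i0 * g.1.1 then 1 else -1) (by
    rintro ⟨a, ha⟩ ⟨b, hb⟩
    show (if (a * b).1 * i0 = i0 * (a * b).1 then (1 : ℤˣ) else -1) =
      (if a.1 * i0 = i0 * a.1 then 1 else -1) * (if b.1 * i0 = i0 * b.1 then 1 else -1)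
    rcases ha with ha | ha <;> rcases hb with hb | hb
    · have h3 : (a * b).1 * i0 = i0 * (a * b).1 := by
        show a.1 * b.1 * i0 = i0 * (a.1 * b.1)
        rw [mul_assoc, hb, ← mul_assoc, ha, mul_assoc]
      simp only [if_pos h3, if_pos ha, if_pos hb, mul_one]
    · have h3 : (a * b).1 * i0 = -(i0 * (a * b).1) := by
        show a.1 * b.1 * i0 = -(i0 * (a.1 * b.1))
        rw [mul_assoc, hb, mul_neg, ← mul_assoc, ha, mul_assoc]
      have h4 : ¬ (a * b).1 * i0 = i0 * (a * b).1 := fun h => not_both h2 _ h h3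
      have h5 : ¬ b.1 * i0 = i0 * b.1 := fun h => not_both h2 _ h hb
      simp only [if_neg h4, if_pos ha, if_neg h5, one_mul]
    · have h3 : (a * b).1 * i0 = -(i0 * (a * b).1) := by
        show a.1 * b.1 * i0 = -(i0 * (a.1 * b.1))
        rw [mul_assoc, hb, ← mul_assoc, ha, neg_mul, mul_assoc]
      have h4 : ¬ (a * b).1 * i0 = i0 * (a * b).1 := fun h => not_both h2 _ h h3
      have h5 : ¬ a.1 * i0 = i0 * a.1 := fun h => not_both h2 _ h ha
      simp only [if_neg h4, if_neg h5, if_pos hb, mul_one]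
    · have h3 : (a * b).1 * i0 = i0 * (a * b).1 := by
        show a.1 * b.1 * i0 = i0 * (a.1 * b.1)
        rw [mul_assoc, hb, mul_neg, ← mul_assoc, ha, neg_mul, neg_neg, mul_assoc]
      have h4 : ¬ a.1 * i0 = i0 * a.1 := fun h => not_both h2 _ h ha
      have h5 : ¬ b.1 * i0 = i0 * b.1 := fun h => not_both h2 _ h hb
      simp only [if_pos h3, if_neg h4, if_neg h5]
      rfl)

theorem chi_eq_one {h2 : (2 : F) ≠ 0} {g : NT F} : chi h2 g = 1 ↔ g.1.1 * i0 = i0 * g.1.1 := by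
  classical
  show (if g.1.1 * i0 = i0 * g.1.1 then (1 : ℤˣ) else -1) = 1 ↔ _
  split_ifs with h
  · exact ⟨fun _ => h, fun _ => rfl⟩
  · exact ⟨fun h' => absurd h' (by decide), fun h' => absurd h' h⟩

theorem chi_eq_neg {h2 : (2 : F) ≠ 0} {g : NT F} : chi h2 g = -1 ↔ g.1.1 * i0 = -(i0 * g.1.1) := by
  classical
  show (if g.1.1 * i0 = i0 * g.1.1 then (1 : ℤˣ) else -1) = -1 ↔ _
  split_ifs with h
  · exact ⟨fun h' => absurd h' (by decide), fun h' => (not_both h2 _ h h').elim⟩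
  · exact ⟨fun _ => g.2.resolve_left h, fun _ => rfl⟩

/-- The determinant. -/
noncomputable def delta (F : Type u) [Field F] : NT F →* Fˣ :=
  (Matrix.GeneralLinearGroup.det (n := Fin 2) (R := F)).comp (NT F).subtype

theorem delta_val (g : NT F) : ((delta F g : Fˣ) : F) = g.1.1 0 0 * g.1.1 1 1 - g.1.1 0 1 * g.1.1 1 0 := by
  rw [← det2]
  rfl

/-- Scalar matrices. -/
def sc (a : Fˣ) : GL (Fin 2) F where
  val := !![(a : F), 0; 0, (a : F)]
  inv := !![((a⁻¹ : Fˣ) : F), 0; 0, ((a⁻¹ : Fˣ) : F)]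
  val_inv := by
    apply m2_ext <;> simp [mul00, mul01, mul10, mul11]
  inv_val := by
    apply m2_ext <;> simp [mul00, mul01, mul10, mul11]

@[simp] theorem sc_00 (a : Fˣ) : (sc a).1 0 0 = (a : F) := rfl
@[simp] theorem sc_01 (a : Fˣ) : (sc a).1 0 1 = 0 := rfl
@[simp] theorem sc_10 (a : Fˣ) : (sc a).1 1 0 = 0 := rfl
@[simp] theorem sc_11 (a : Fˣ) : (sc a).1 1 1 = (a : F) := rfl

/-- Scalars in `NT`. -/
def sN (F : Type u) [Field F] : Fˣ →* NT F :=
  MonoidHom.mk' (fun a => ⟨sc a, Or.inl (by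
    apply m2_ext <;> simp [mul00, mul01, mul10, mul11])⟩) (by
    intro a b
    apply Subtype.ext
    apply Units.ext
    apply m2_ext <;> simp [mul00, mul01, mul10, mul11])

@[simp] theorem sN_00 (a : Fˣ) : (sN F a).1.1 0 0 = (a : F) := rfl
@[simp] theorem sN_01 (a : Fˣ) : (sN F a).1.1 0 1 = 0 := rfl
@[simp] theorem sN_10 (a : Fˣ) : (sN F a).1.1 1 0 = 0 := rfl
@[simp] theorem sN_11 (a : Fˣ) : (sN F a).1.1 1 1 = (a : F) := rfl

/-- The element `i`. -/
def iN (F : Type u) [Field F] : NT F :=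
  ⟨⟨i0, -i0, by
    apply m2_ext <;> simp [mul00, mul01, mul10, mul11], by
    apply m2_ext <;> simp [mul00, mul01, mul10, mul11]⟩, Or.inl rfl⟩

@[simp] theorem iN_00 : (iN F).1.1 0 0 = 0 := rfl
@[simp] theorem iN_01 : (iN F).1.1 0 1 = -1 := rfl
@[simp] theorem iN_10 : (iN F).1.1 1 0 = 1 := rfl
@[simp] theorem iN_11 : (iN F).1.1 1 1 = 0 := rfl

theorem nt_ext {a b : NT F} (h00 : a.1.1 0 0 = b.1.1 0 0) (h01 : a.1.1 0 1 = b.1.1 0 1)
    (h10 : a.1.1 1 0 = b.1.1 1 0) (h11 : a.1.1 1 1 = b.1.1 1 1) : a = b :=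
  Subtype.ext (Units.ext (m2_ext h00 h01 h10 h11))

section entries

variable (a b : NT F)

theorem nmul00 : (a * b).1.1 0 0 = a.1.1 0 0 * b.1.1 0 0 + a.1.1 0 1 * b.1.1 1 0 := mul00 _ _
theorem nmul01 : (a * b).1.1 0 1 = a.1.1 0 0 * b.1.1 0 1 + a.1.1 0 1 * b.1.1 1 1 := mul01 _ _
theorem nmul10 : (a * b).1.1 1 0 = a.1.1 1 0 * b.1.1 0 0 + a.1.1 1 1 * b.1.1 1 0 := mul10 _ _
theorem nmul11 : (a * b).1.1 1 1 = a.1.1 1 0 * b.1.1 0 1 + a.1.1 1 1 * b.1.1 1 1 := mul11 _ _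

end entries

theorem conj_form (h2 : (2 : F) ≠ 0) {c r : NT F} (hc : chi h2 c = 1) (hr : chi h2 r = -1) :
    c * r * c = sN F (delta F c) * r := by
  obtain ⟨c1, c2⟩ := form_T (chi_eq_one.1 hc)
  obtain ⟨r1, r2⟩ := form_R (chi_eq_neg.1 hr)
  apply nt_ext <;>
  simp only [nmul00, nmul01, nmul10, nmul11, sN_00, sN_01, sN_10, sN_11, delta_val, c1, c2, r1, r2] <;> ring

theorem hyp_main (h2 : (2 : F) ≠ 0) : Hyp (chi h2) (delta F) (sN F) (-1 : Fˣ) (iN F) where
  s_comm a n := by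
    apply nt_ext <;> simp only [nmul00, nmul01, nmul10, nmul11, sN_00, sN_01, sN_10, sN_11] <;> ring
  T_comm a b ha hb := by
    obtain ⟨a1, a2⟩ := form_T (chi_eq_one.1 ha)
    obtain ⟨b1, b2⟩ := form_T (chi_eq_one.1 hb)
    apply nt_ext <;> simp only [nmul00, nmul01, nmul10, nmul11, a1, a2, b1, b2] <;> ring
  sq_T c r hc hr := by
    have h1 := conj_form h2 hc hr
    have hs : ∀ (a : Fˣ) (n : NT F), sN F a * n = n * sN F a := by
      intro a n
      apply nt_ext <;> simp only [nmul00, nmul01, nmul10, nmul11, sN_00, sN_01, sN_10, sN_11] <;> ring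
    calc c * c = c * (c * r * c) * c⁻¹ * r⁻¹ := by group
      _ = c * (sN F (delta F c) * r) * c⁻¹ * r⁻¹ := by rw [h1]
      _ = (c * sN F (delta F c)) * (r * c⁻¹ * r⁻¹) := by group
      _ = (sN F (delta F c) * c) * (r * c⁻¹ * r⁻¹) := by rw [hs]
      _ = _ := by group
  sq_R c hc := by
    obtain ⟨c1, c2⟩ := form_R (chi_eq_neg.1 hc)
    apply nt_ext <;> simp only [nmul00, nmul01, nmul10, nmul11, sN_00, sN_01, sN_10, sN_11, Units.val_mul, delta_val,
      Units.val_neg, Units.val_one, c1, c2] <;> ring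
  i_T := chi_eq_one.2 rfl
  i_δ := by
    apply Units.ext
    rw [delta_val]
    show (0 : F) * 0 - (-1) * 1 = _
    simp
  i_sq := by
    apply nt_ext <;> simp [mul00, mul01, mul10, mul11]

theorem iN_pow : (iN F) ^ 4 = 1 := by
  have h1 : iN F * iN F = sN F (-1) := by
    apply nt_ext <;> simp [mul00, mul01, mul10, mul11]
  rw [show (4 : ℕ) = 2 + 2 from rfl, pow_add, pow_two, h1, ← map_mul]
  simp

/-- Elements of the torus. -/
noncomputable def rotN (a b : F) (h : a ^ 2 + b ^ 2 ≠ 0) : NT F :=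
  ⟨Matrix.GeneralLinearGroup.mkOfDetNeZero !![a, -b; b, a] (by
    rw [det2]
    simp only [of_apply, cons_val', cons_val_zero, cons_val_one, cons_val_fin_one]
    intro h'
    apply h
    linear_combination h'), Or.inl (by
      apply of_form_T
      · rfl
      · show b = - - b
        simp)⟩

@[simp] theorem rot_00 (a b : F) (h : a ^ 2 + b ^ 2 ≠ 0) : (rotN a b h).1.1 0 0 = a := rfl
@[simp] theorem rot_01 (a b : F) (h : a ^ 2 + b ^ 2 ≠ 0) : (rotN a b h).1.1 0 1 = - b := rfl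
@[simp] theorem rot_10 (a b : F) (h : a ^ 2 + b ^ 2 ≠ 0) : (rotN a b h).1.1 1 0 = b := rfl
@[simp] theorem rot_11 (a b : F) (h : a ^ 2 + b ^ 2 ≠ 0) : (rotN a b h).1.1 1 1 = a := rfl

theorem chi_rot (h2 : (2 : F) ≠ 0) (a b : F) (h : a ^ 2 + b ^ 2 ≠ 0) : chi h2 (rotN a b h) = 1 :=
  chi_eq_one.2 (of_form_T rfl (by
    show b = - - b
    simp))

theorem delta_rot (a b : F) (h : a ^ 2 + b ^ 2 ≠ 0) : ((delta F (rotN a b h) : Fˣ) : F) = a ^ 2 + b ^ 2 := by
  rw [delta_val]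
  simp only [rot_00, rot_01, rot_10, rot_11]
  ring

/-- The reflection. -/
def r0N (F : Type u) [Field F] : NT F :=
  ⟨⟨!![1, 0; 0, -1], !![1, 0; 0, -1], by
    apply m2_ext <;> simp [mul00, mul01, mul10, mul11], by
    apply m2_ext <;> simp [mul00, mul01, mul10, mul11]⟩, Or.inr (by
    apply of_form_R
    · rfl
    · rfl)⟩

theorem chi_r0 (h2 : (2 : F) ≠ 0) : chi h2 (r0N F) = -1 :=
  chi_eq_neg.2 (of_form_R rfl rfl)

theorem delta_r0 : ((delta F (r0N F) : Fˣ) : F) = -1 := by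
  rw [delta_val]
  show (1 : F) * (-1) - 0 * 0 = -1
  simp

section finite

variable [Fintype F] (hF : Odd (Fintype.card F))

include hF

theorem hin : ∃ r t : NT F, delta F r = delta F t ∧ chi (Cfsg.Agent.Lib.Char.SylowSq.Form.two_ne_zero_of_odd hF) r = -1 ∧
    chi (Cfsg.Agent.Lib.Char.SylowSq.Form.two_ne_zero_of_odd hF) t = 1 := by
  have h2 := Cfsg.Agent.Lib.Char.SylowSq.Form.two_ne_zero_of_odd hF
  obtain ⟨x, y, hxy⟩ := Cfsg.Agent.Lib.Char.SylowSq.Form.exists_sum_sq hF (a := (-1 : F)) (b := -1) (by simp) (by simp)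
  have hn : x ^ 2 + y ^ 2 = -1 := by linear_combination -hxy
  have hn0 : x ^ 2 + y ^ 2 ≠ 0 := by
    rw [hn]
    simp
  refine ⟨r0N F, rotN x y hn0, ?_, chi_r0 h2, chi_rot h2 _ _ _⟩
  apply Units.ext
  rw [delta_r0, delta_rot, hn]

theorem delta_surj : Function.Surjective (delta F) := by
  intro a
  have ha : ((a⁻¹ : Fˣ) : F) ≠ 0 := Units.ne_zero _
  obtain ⟨x, y, hxy⟩ := Cfsg.Agent.Lib.Char.SylowSq.Form.exists_sum_sq hF ha ha
  have hn : x ^ 2 + y ^ 2 = a := by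
    have h3 : ((a⁻¹ : Fˣ) : F) * a = 1 := by simp
    calc x ^ 2 + y ^ 2 = ((a⁻¹ : Fˣ) : F) * a * (x ^ 2 + y ^ 2) := by rw [h3, one_mul]
      _ = (((a⁻¹ : Fˣ) : F) * x ^ 2 + ((a⁻¹ : Fˣ) : F) * y ^ 2) * a := by ring
      _ = a := by rw [hxy, one_mul]
  have hn0 : x ^ 2 + y ^ 2 ≠ 0 := by
    rw [hn]
    exact a.ne_zero
  refine ⟨rotN x y hn0, ?_⟩
  apply Units.ext
  rw [delta_rot, hn]

/-- The torus as the kernel. -/
noncomputable def torusEquiv (h2 : (2 : F) ≠ 0) : (chi h2).ker ≃ {p : F × F // p.1 ^ 2 + p.2 ^ 2 ≠ 0} where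
  toFun g := ⟨(g.1.1.1 0 0, g.1.1.1 1 0), by
    have h1 := form_T (chi_eq_one.1 g.2)
    have h3 : IsUnit g.1.1.1.det := (Matrix.isUnit_iff_isUnit_det _).1 g.1.1.isUnit
    have h4 : g.1.1.1.det ≠ 0 := h3.ne_zero
    rw [det2, h1.1, h1.2] at h4
    simp only
    rw [h1.2]
    intro h5
    apply h4
    linear_combination h5⟩
  invFun p := ⟨rotN p.1.1 p.1.2 p.2, chi_rot h2 _ _ _⟩
  left_inv g := by
    have h1 := form_T (chi_eq_one.1 g.2)
    apply Subtype.ext
    apply nt_ext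
    · rfl
    · show - g.1.1.1 1 0 = g.1.1.1 0 1
      rw [h1.2, neg_neg]
    · rfl
    · show g.1.1.1 0 0 = g.1.1.1 1 1
      rw [h1.1]
  right_inv p := rfl

theorem card_zero_of_square (h : IsSquare (-1 : F)) :
    Nat.card {p : F × F // p.1 ^ 2 + p.2 ^ 2 = 0} + 1 = 2 * Fintype.card F := by
  classical
  have h2 := Cfsg.Agent.Lib.Char.SylowSq.Form.two_ne_zero_of_odd hF
  obtain ⟨ι, hι⟩ := h
  have hι0 : ι ≠ 0 := by
    rintro rfl
    simp at hι
  let e : F × F ≃ F × F :=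
    { toFun := fun p => (p.1 + ι * p.2, p.1 - ι * p.2)
      invFun := fun p => ((p.1 + p.2) / 2, (p.1 - p.2) / (2 * ι))
      left_inv := fun p => by
        refine Prod.ext ?_ ?_
        · show (p.1 + ι * p.2 + (p.1 - ι * p.2)) / 2 = p.1
          field_simp
          ring
        · show (p.1 + ι * p.2 - (p.1 - ι * p.2)) / (2 * ι) = p.2
          field_simp
          ring
      right_inv := fun p => by
        refine Prod.ext ?_ ?_
        · show (p.1 + p.2) / 2 + ι * ((p.1 - p.2) / (2 * ι)) = p.1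
          field_simp
          ring
        · show (p.1 + p.2) / 2 - ι * ((p.1 - p.2) / (2 * ι)) = p.2
          field_simp
          ring }
  have h3 : {p : F × F // p.1 ^ 2 + p.2 ^ 2 = 0} ≃ {p : F × F // p.1 * p.2 = 0} :=
    Equiv.subtypeEquiv e (fun p => by
      show _ ↔ (p.1 + ι * p.2) * (p.1 - ι * p.2) = 0
      have : (p.1 + ι * p.2) * (p.1 - ι * p.2) = p.1 ^ 2 + p.2 ^ 2 := by
        linear_combination (p.2 ^ 2) * hι
      rw [this])
  have h4 := Cfsg.Agent.Lib.Char.G2Syl.Count.card_ab (0 : F)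
  rw [if_pos rfl, add_zero] at h4
  rw [Nat.card_congr h3, h4]
  have : 1 ≤ Fintype.card F := Fintype.card_pos
  omega

theorem card_zero_of_not_square (h : ¬ IsSquare (-1 : F)) :
    Nat.card {p : F × F // p.1 ^ 2 + p.2 ^ 2 = 0} = 1 := by
  have : Unique {p : F × F // p.1 ^ 2 + p.2 ^ 2 = 0} :=
    { default := ⟨(0, 0), by simp⟩
      uniq := fun p => by
        obtain ⟨⟨a, b⟩, hp⟩ := p
        simp only at hp
        have hb : b = 0 := by
          by_contra hb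
          apply h
          refine ⟨a / b, ?_⟩
          field_simp
          linear_combination -hp
        have ha : a = 0 := by
          rw [hb] at hp
          simpa using hp
        apply Subtype.ext
        exact Prod.ext ha hb }
  exact Nat.card_unique

/-- The count of non-isotropic vectors. -/
theorem card_compl :
    Nat.card {p : F × F // p.1 ^ 2 + p.2 ^ 2 ≠ 0} + Nat.card {p : F × F // p.1 ^ 2 + p.2 ^ 2 = 0} =
      Fintype.card F ^ 2 := by
  classical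
  have h1 := Nat.card_congr (Equiv.sumCompl (fun p : F × F => p.1 ^ 2 + p.2 ^ 2 = 0))
  rw [Nat.card_sum, Nat.card_prod, Nat.card_eq_fintype_card (α := F)] at h1
  rw [add_comm, pow_two]
  exact h1

theorem v2_torus (h2 : (2 : F) ≠ 0) :
    v2 (Fintype.card F ^ 2 - 1) + v2 (Fintype.card F - 1) ≤ 1 + v2 (Nat.card (chi h2).ker) := by
  set q := Fintype.card F with hq
  have hq1 : 1 < q := Fintype.one_lt_card
  rw [Nat.card_congr (torusEquiv h2)]
  have hc := card_compl (F := F) hF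
  rw [v2_sq_sub_one hq1]
  by_cases hs : IsSquare (-1 : F)
  · have h3 := card_zero_of_square hF hs
    have h4 := Cfsg.Agent.Lib.Char.SylowSq.Plane.q_mod4_of_square hF hs
    rw [← hq] at h3 h4 hc
    set n := Nat.card {p : F × F // p.1 ^ 2 + p.2 ^ 2 ≠ 0}
    have h5 : n = (q - 1) * (q - 1) := by
      obtain ⟨r, hr⟩ : ∃ r, q = r + 1 := ⟨q - 1, by omega⟩
      rw [hr]
      rw [hr] at hc h3
      simp only [Nat.add_sub_cancel]
      set m := Nat.card {p : F × F // p.1 ^ 2 + p.2 ^ 2 = 0}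
      have : m = 2 * r + 1 := by omega
      rw [this] at hc
      nlinarith
    rw [h5, v2_mul (by omega) (by omega), v2_of_mod4 (x := q + 1) (by omega)]
    omega
  · have h3 := card_zero_of_not_square hF hs
    have h4 := Cfsg.Agent.Lib.Char.SylowSq.Plane.q_mod4_of_not_square hF hs
    rw [← hq] at h4 hc
    rw [h3] at hc
    have h5 : Nat.card {p : F × F // p.1 ^ 2 + p.2 ^ 2 ≠ 0} = q ^ 2 - 1 := by omega
    rw [h5, v2_sq_sub_one hq1, v2_of_mod4 (x := q - 1) (by omega)]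
    omega

end finite

end Cfsg.Agent.Lib.Char.G2Syl.NT
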