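import Mathlib
import Cfsg.Agent.Lib.Char.G2Syl.Triple
import Cfsg.Agent.Lib.Char.G2Syl.NT

/-!
# The subgroup `(SL₂ × SL₂)`-type of the automorphism group of Zorn's algebra, via Cayley-Dickson doubling
-/

set_option autoImplicit false
set_option linter.unusedSectionVars false

namespace Cfsg.Agent.Lib.Char.G2Syl.CD

open Matrix Cfsg.Agent.Lib.Char.G2Syl.Abs Cfsg.Agent.Lib.Char.G2Syl.NT
open Cfsg.Agent.Lib.Char.G2Syl.Zorn Cfsg.Agent.Lib.Char.G2Syl.Triple

universe u

variable {F : Type u} [Field F]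

/-- Explicit adjugate. -/
def adjZ (A : M2 F) : M2 F := !![A 1 1, - A 0 1; - A 1 0, A 0 0]

@[simp] theorem adj00 (A : M2 F) : adjZ A 0 0 = A 1 1 := rfl
@[simp] theorem adj01 (A : M2 F) : adjZ A 0 1 = - A 0 1 := rfl
@[simp] theorem adj10 (A : M2 F) : adjZ A 1 0 = - A 1 0 := rfl
@[simp] theorem adj11 (A : M2 F) : adjZ A 1 1 = A 0 0 := rfl

theorem adj_mul (A B : M2 F) : adjZ (A * B) = adjZ B * adjZ A := by
  apply m2_ext <;> simp only [mul00, mul01, mul10, mul11, adj00, adj01, adj10, adj11] <;> ring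

theorem adj_mul_self (A : M2 F) : adjZ A * A = A.det • (1 : M2 F) := by
  apply m2_ext <;>
    simp only [mul00, mul01, mul10, mul11, adj00, adj01, adj10, adj11, det2, Matrix.smul_apply, smul_eq_mul,
      Matrix.one_apply_eq, Matrix.one_apply_ne (show (0 : Fin 2) ≠ 1 by decide),
      Matrix.one_apply_ne (show (1 : Fin 2) ≠ 0 by decide)] <;> ring

theorem self_mul_adj (A : M2 F) : A * adjZ A = A.det • (1 : M2 F) := by
  apply m2_ext <;>
    simp only [mul00, mul01, mul10, mul11, adj00, adj01, adj10, adj11, det2, Matrix.smul_apply, smul_eq_mul,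
      Matrix.one_apply_eq, Matrix.one_apply_ne (show (0 : Fin 2) ≠ 1 by decide),
      Matrix.one_apply_ne (show (1 : Fin 2) ≠ 0 by decide)] <;> ring

/-- The doubled product. -/
def mul8 (a b : M2 F × M2 F) : M2 F × M2 F :=
  (a.1 * b.1 - adjZ b.2 * a.2, b.2 * a.1 + a.2 * adjZ b.1)

/-- The two-matrix coordinates. -/
def psi (F : Type u) [Field F] : O8 F ≃ₗ[F] M2 F × M2 F where
  toFun x := (!![x 0, x 1; x 4, x 7], !![x 2, x 6; x 3, - x 5])
  map_add' x y := by
    refine Prod.ext ?_ ?_ <;> apply m2_ext <;> simp <;> ring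
  map_smul' r x := by
    refine Prod.ext ?_ ?_ <;> apply m2_ext <;> simp
  invFun a := ![a.1 0 0, a.1 0 1, a.2 0 0, a.2 1 0, a.1 1 0, - a.2 1 1, a.2 0 1, a.1 1 1]
  left_inv x := by
    apply ext8 <;> simp
  right_inv a := by
    refine Prod.ext ?_ ?_ <;> apply m2_ext <;> simp

section coords
variable (x : O8 F)
@[simp] theorem psi1_00 : (psi F x).1 0 0 = x 0 := rfl
@[simp] theorem psi1_01 : (psi F x).1 0 1 = x 1 := rfl
@[simp] theorem psi1_10 : (psi F x).1 1 0 = x 4 := rfl
@[simp] theorem psi1_11 : (psi F x).1 1 1 = x 7 := rfl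
@[simp] theorem psi2_00 : (psi F x).2 0 0 = x 2 := rfl
@[simp] theorem psi2_01 : (psi F x).2 0 1 = x 6 := rfl
@[simp] theorem psi2_10 : (psi F x).2 1 0 = x 3 := rfl
@[simp] theorem psi2_11 : (psi F x).2 1 1 = - x 5 := rfl
end coords

theorem psi_zm (x y : O8 F) : psi F (zm x y) = mul8 (psi F x) (psi F y) := by
  refine Prod.ext ?_ ?_ <;> apply m2_ext <;>
    simp only [mul8, Matrix.sub_apply, Matrix.add_apply, mul00, mul01, mul10, mul11, adj00, adj01, adj10, adj11,
      psi1_00, psi1_01, psi1_10, psi1_11, psi2_00, psi2_01, psi2_10, psi2_11, zm0, zm1, zm2, zm3, zm4, zm5, zm6, zm7] <;>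
    ring

/-- Left and right multiplication. -/
def lr (p c : GL (Fin 2) F) : M2 F ≃ₗ[F] M2 F where
  toFun X := p.1 * X * c⁻¹.1
  map_add' X Y := by
    rw [mul_add, add_mul]
  map_smul' r X := by
    simp [Matrix.mul_smul, Matrix.smul_mul]
  invFun X := p⁻¹.1 * X * c.1
  left_inv X := by
    simp [mul_assoc]
  right_inv X := by
    simp [mul_assoc]

theorem lr_apply (p c : GL (Fin 2) F) (X : M2 F) : lr p c X = p.1 * X * c⁻¹.1 := rfl

theorem lr_mul (p c p' c' : GL (Fin 2) F) (X : M2 F) : lr (p * p') (c * c') X = lr p c (lr p' c' X) := by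
  simp only [lr_apply, _root_.mul_inv_rev, Units.val_mul, mul_assoc]

/-- The action on doubled coordinates. -/
def phi (c p : GL (Fin 2) F) : (M2 F × M2 F) ≃ₗ[F] (M2 F × M2 F) := (lr c c).prodCongr (lr p c)

theorem phi_apply (c p : GL (Fin 2) F) (a : M2 F × M2 F) : phi c p a = (lr c c a.1, lr p c a.2) := rfl

theorem phi_mul8 (c p : GL (Fin 2) F) (hdet : c.1.det = p.1.det) (a b : M2 F × M2 F) :
    phi c p (mul8 a b) = mul8 (phi c p a) (phi c p b) := by
  have h1 : c.1 * c⁻¹.1 = 1 := c.mul_inv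
  have h2 : c⁻¹.1 * c.1 = 1 := c.inv_mul
  have hd : c.1.det * c⁻¹.1.det = 1 := by
    rw [← Matrix.det_mul, h1, Matrix.det_one]
  have hc : adjZ c.1 = c.1.det • c⁻¹.1 := by
    calc adjZ c.1 = adjZ c.1 * (c.1 * c⁻¹.1) := by rw [h1, mul_one]
      _ = (adjZ c.1 * c.1) * c⁻¹.1 := by rw [mul_assoc]
      _ = _ := by rw [adj_mul_self, Matrix.smul_mul, one_mul]
  have hc' : adjZ c⁻¹.1 = c⁻¹.1.det • c.1 := by
    calc adjZ c⁻¹.1 = adjZ c⁻¹.1 * (c⁻¹.1 * c.1) := by rw [h2, mul_one]
      _ = (adjZ c⁻¹.1 * c⁻¹.1) * c.1 := by rw [mul_assoc]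
      _ = _ := by rw [adj_mul_self, Matrix.smul_mul, one_mul]
  have hp : adjZ p.1 * p.1 = c.1.det • (1 : M2 F) := by rw [adj_mul_self, hdet]
  set C := c.1 with hC
  set C' := c⁻¹.1 with hC'
  set P := p.1 with hP
  refine Prod.ext ?_ ?_
  · show C * (a.1 * b.1 - adjZ b.2 * a.2) * C' =
      (C * a.1 * C') * (C * b.1 * C') - adjZ (P * b.2 * C') * (P * a.2 * C')
    have e1 : (C * a.1 * C') * (C * b.1 * C') = C * (a.1 * b.1) * C' := by
      calc (C * a.1 * C') * (C * b.1 * C') = C * a.1 * (C' * C) * b.1 * C' := by simp only [mul_assoc]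
        _ = _ := by rw [h2, mul_one]; simp only [mul_assoc]
    have e2 : adjZ (P * b.2 * C') * (P * a.2 * C') = C * (adjZ b.2 * a.2) * C' := by
      rw [adj_mul, adj_mul, hc']
      calc C'.det • C * (adjZ b.2 * adjZ P) * (P * a.2 * C')
          = C'.det • (C * adjZ b.2 * (adjZ P * P) * a.2 * C') := by
            simp only [Matrix.smul_mul, mul_assoc]
        _ = C'.det • (C * adjZ b.2 * (C.det • (1 : M2 F)) * a.2 * C') := by rw [hp]
        _ = (C'.det * C.det) • (C * adjZ b.2 * a.2 * C') := by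
            simp only [Matrix.mul_smul, Matrix.smul_mul, mul_one, smul_smul]
        _ = _ := by
            rw [mul_comm, hd, one_smul]
            simp only [mul_assoc]
    rw [e1, e2, mul_sub, sub_mul]
  · show P * (b.2 * a.1 + a.2 * adjZ b.1) * C' =
      (P * b.2 * C') * (C * a.1 * C') + (P * a.2 * C') * adjZ (C * b.1 * C')
    have e1 : (P * b.2 * C') * (C * a.1 * C') = P * (b.2 * a.1) * C' := by
      calc (P * b.2 * C') * (C * a.1 * C') = P * b.2 * (C' * C) * a.1 * C' := by simp only [mul_assoc]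
        _ = _ := by rw [h2, mul_one]; simp only [mul_assoc]
    have e2 : (P * a.2 * C') * adjZ (C * b.1 * C') = P * (a.2 * adjZ b.1) * C' := by
      rw [adj_mul, adj_mul, hc', hc]
      calc P * a.2 * C' * (C'.det • C * (adjZ b.1 * C.det • C'))
          = (C.det * C'.det) • (P * a.2 * (C' * C) * adjZ b.1 * C') := by
            simp only [Matrix.mul_smul, Matrix.smul_mul, mul_assoc, smul_smul]
        _ = _ := by
            rw [hd, one_smul, h2, mul_one]
            simp only [mul_assoc]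
    rw [e1, e2, mul_add, add_mul]

/-- The determinant on `GL₂`. -/
noncomputable abbrev detG (F : Type u) [Field F] : GL (Fin 2) F →* Fˣ := Matrix.GeneralLinearGroup.det

theorem det_eq_of_mem {g : GL (Fin 2) F × GL (Fin 2) F} (hg : g ∈ BB (detG F)) : g.1.1.det = g.2.1.det :=
  congrArg Units.val hg

/-- The linear automorphism. -/
def PhiE (g : GL (Fin 2) F × GL (Fin 2) F) : O8 F ≃ₗ[F] O8 F :=
  (psi F).trans ((phi g.1 g.2).trans (psi F).symm)

theorem PhiE_apply (g : GL (Fin 2) F × GL (Fin 2) F) (x : O8 F) :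
    PhiE g x = (psi F).symm (phi g.1 g.2 (psi F x)) := rfl

theorem psi_PhiE (g : GL (Fin 2) F × GL (Fin 2) F) (x : O8 F) :
    psi F (PhiE g x) = phi g.1 g.2 (psi F x) := by
  rw [PhiE_apply, LinearEquiv.apply_symm_apply]

theorem PhiE_mem {g : GL (Fin 2) F × GL (Fin 2) F} (hg : g ∈ BB (detG F)) : PhiE g ∈ AutZ F := by
  intro x y
  apply (psi F).injective
  rw [psi_PhiE, psi_zm, psi_zm, psi_PhiE, psi_PhiE, phi_mul8 _ _ (det_eq_of_mem hg)]

/-- The homomorphism to the automorphism group. -/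
noncomputable def Phi (F : Type u) [Field F] : BB (detG F) →* AutZ F :=
  MonoidHom.mk' (fun g => ⟨PhiE g.1, PhiE_mem g.2⟩) (by
    intro a b
    apply Subtype.ext
    apply LinearEquiv.ext
    intro x
    apply (psi F).injective
    show psi F (PhiE (a.1 * b.1) x) = psi F (PhiE a.1 (PhiE b.1 x))
    rw [psi_PhiE, psi_PhiE, psi_PhiE]
    refine Prod.ext ?_ ?_
    · exact lr_mul _ _ _ _ _
    · exact lr_mul _ _ _ _ _)

theorem Phi_apply (g : BB (detG F)) (x : O8 F) : (Phi F g).1 x = PhiE g.1 x := rfl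

/-- The inclusion of the small fibre product. -/
noncomputable def incl (F : Type u) [Field F] : BB (delta F) →* BB (detG F) :=
  MonoidHom.mk' (fun x => ⟨(x.1.1.1, x.1.2.1), x.2⟩) (fun _ _ => rfl)

/-- The map to `G₂` from the small fibre product. -/
noncomputable def PhiN (F : Type u) [Field F] : BB (delta F) →* AutZ F := (Phi F).comp (incl F)

/-- The scalars, as a homomorphism. -/
noncomputable def dgHom (F : Type u) [Field F] : Fˣ →* BB (delta F) :=
  MonoidHom.mk' (fun a => dg (delta F) (sN F) a) (by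
    intro a b
    apply Subtype.ext
    refine Prod.ext ?_ ?_
    · exact map_mul (sN F) a b
    · exact map_mul (sN F) a b)

theorem PhiN_dg (a : Fˣ) : PhiN F (dg (delta F) (sN F) a) = 1 := by
  apply Subtype.ext
  apply LinearEquiv.ext
  intro x
  apply (psi F).injective
  show psi F (PhiE _ x) = psi F x
  rw [psi_PhiE]
  have key : ∀ X : M2 F, (sN F a).1.1 * X * ((sN F a).1)⁻¹.1 = X := by
    intro X
    have h1 : (sN F a).1.1 * X = X * (sN F a).1.1 := by
      apply m2_ext <;> simp only [mul00, mul01, mul10, mul11, sN_00, sN_01, sN_10, sN_11] <;> ring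
    rw [h1, mul_assoc]
    simp
  exact Prod.ext (key _) (key _)

/-- Elements of the kernel are scalars. -/
theorem ker_PhiN (x : BB (delta F)) (hx : PhiN F x = 1) : ∃ a : Fˣ, x = dg (delta F) (sN F) a := by
  obtain ⟨⟨c, p⟩, hcp⟩ := x
  have h1 : ∀ y : O8 F, PhiE (c.1, p.1) y = y := fun y => by
    have := congrArg (fun g : AutZ F => g.1 y) hx
    exact this
  have h2 : ∀ a : M2 F × M2 F, phi c.1 p.1 a = a := by
    intro a
    have h3 := h1 ((psi F).symm a)
    have h4 := congrArg (psi F) h3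
    rw [psi_PhiE, LinearEquiv.apply_symm_apply] at h4
    exact h4
  have h3 : ∀ X : M2 F, c.1.1 * X = X * c.1.1 := by
    intro X
    have h4 := congrArg Prod.fst (h2 (X, 0))
    have h5 : c.1.1 * X * (c.1)⁻¹.1 = X := h4
    calc c.1.1 * X = c.1.1 * X * ((c.1)⁻¹.1 * c.1.1) := by
          rw [(c.1).inv_mul, mul_one]
      _ = (c.1.1 * X * (c.1)⁻¹.1) * c.1.1 := by simp only [mul_assoc]
      _ = _ := by rw [h5]
  have h4 : p.1.1 = c.1.1 := by
    have h5 := congrArg Prod.snd (h2 (0, 1))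
    have h6 : p.1.1 * 1 * (c.1)⁻¹.1 = 1 := h5
    calc p.1.1 = p.1.1 * 1 * ((c.1)⁻¹.1 * c.1.1) := by
          rw [(c.1).inv_mul, mul_one, mul_one]
      _ = (p.1.1 * 1 * (c.1)⁻¹.1) * c.1.1 := by simp only [mul_assoc]
      _ = _ := by rw [h6, one_mul]
  -- scalar
  have e1 := h3 !![0, 1; 0, 0]
  have e2 := h3 !![0, 0; 1, 0]
  have e00 := congrFun (congrFun e1 0) 0
  have e01 := congrFun (congrFun e1 0) 1
  have f00 := congrFun (congrFun e2 0) 0
  simp [mul00, mul01] at e00 e01 f00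
  have hdet : IsUnit c.1.1.det := (Matrix.isUnit_iff_isUnit_det _).1 c.1.isUnit
  have hne : c.1.1 0 0 ≠ 0 := by
    intro h0
    have hd0 : c.1.1.det = 0 := by
      rw [det2, h0, f00]
      ring
    rw [hd0] at hdet
    exact not_isUnit_zero hdet
  refine ⟨Units.mk0 _ hne, ?_⟩
  apply Subtype.ext
  refine Prod.ext ?_ ?_
  · apply nt_ext
    · rfl
    · exact f00
    · exact e00.symm
    · exact e01.symm
  · apply nt_ext
    · rw [h4]
      rfl
    · rw [h4]
      exact f00
    · rw [h4]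
      exact e00.symm
    · rw [h4]
      exact e01.symm

end Cfsg.Agent.Lib.Char.G2Syl.CD
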