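import Mathlib
import Cfsg.Agent.Lib.Char.G2Syl.CD
import Cfsg.Agent.Lib.Char.G2Syl.Count

/-!
# Squares in Sylow 2-subgroups of `G₂(q)`, `q` odd
-/

set_option autoImplicit false
set_option linter.unusedSectionVars false

namespace Cfsg.Agent.Lib.Char.G2Syl.Main

open Matrix Cfsg.Agent.Lib.Char.G2Syl.Abs Cfsg.Agent.Lib.Char.G2Syl.NT Cfsg.Agent.Lib.Char.G2Syl.CD
open Cfsg.Agent.Lib.Char.G2Syl.Zorn Cfsg.Agent.Lib.Char.G2Syl.Triple
open Cfsg.Agent.Lib.Char.SylowSq.Arith Cfsg.Agent.Lib.Char.SylowSq.Core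

universe u

variable {F : Type u} [Field F] [Fintype F]

theorem finite_AutZ : Finite (AutZ F) := by
  have hO : Finite (O8 F) := inferInstance
  exact Finite.of_injective (fun g : AutZ F => ((g.1 : O8 F ≃ₗ[F] O8 F) : O8 F → O8 F)) (fun a b hab => by
    apply Subtype.ext
    exact DFunLike.coe_injective hab)

/-- The arithmetic. -/
theorem v2_main (hF : Odd (Fintype.card F)) :
    v2 (Nat.card (AutZ F)) + v2 (Nat.card (PhiN F).ker) ≤ v2 (Nat.card (BB (delta F))) := by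
  classical
  have h2 : (2 : F) ≠ 0 := Cfsg.Agent.Lib.Char.SylowSq.Form.two_ne_zero_of_odd hF
  set q := Fintype.card F with hq
  have hq1 : 1 < q := Fintype.one_lt_card
  have hA := Cfsg.Agent.Lib.Char.G2Syl.Count.v2_card_AutZ hF
  rw [← hq] at hA
  -- the kernel
  have hU : Nat.card Fˣ = q - 1 := by
    rw [Nat.card_eq_fintype_card, Fintype.card_units]
  have hk1 : (PhiN F).ker ≤ (dgHom F).range := by
    intro x hx
    obtain ⟨a, ha⟩ := ker_PhiN x hx
    exact ⟨a, ha.symm⟩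
  have hk2 : Nat.card (PhiN F).ker ∣ q - 1 := by
    rw [← hU]
    exact (Subgroup.card_dvd_of_le hk1).trans (Subgroup.card_range_dvd _)
  have hq0 : q - 1 ≠ 0 := by omega
  have hk3 : v2 (Nat.card (PhiN F).ker) ≤ v2 (q - 1) :=
    (Nat.factorization_le_iff_dvd Nat.card_pos.ne' hq0).2 hk2 2
  -- the determinant
  have hκ : Nat.card (delta F).ker * (q - 1) = Nat.card (NT F) := by
    rw [← hU, ← Subgroup.card_mul_index (delta F).ker, Subgroup.index_ker,
      MonoidHom.range_eq_top.2 (delta_surj hF), Subgroup.card_top]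
  -- the sign
  have hχ : Function.Surjective (chi h2) := by
    intro a
    rcases Int.units_eq_one_or a with rfl | rfl
    · exact ⟨1, map_one _⟩
    · exact ⟨r0N F, chi_r0 h2⟩
  have hτ : Nat.card (chi h2).ker * 2 = Nat.card (NT F) := by
    rw [← Subgroup.card_mul_index (chi h2).ker, Subgroup.index_ker,
      MonoidHom.range_eq_top.2 hχ, Subgroup.card_top, Nat.card_eq_fintype_card (α := ℤˣ), Fintype.card_units_int]
  have hT := v2_torus hF h2
  rw [← hq] at hT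
  have hB := card_BB (delta F)
  have hκ0 : Nat.card (delta F).ker ≠ 0 := Nat.card_pos.ne'
  have hτ0 : Nat.card (chi h2).ker ≠ 0 := Nat.card_pos.ne'
  have hN0 : Nat.card (NT F) ≠ 0 := Nat.card_pos.ne'
  have e1 : v2 (Nat.card (NT F)) = v2 (Nat.card (delta F).ker) + v2 (q - 1) := by
    rw [← hκ, v2_mul hκ0 hq0]
  have e2 : v2 (Nat.card (NT F)) = v2 (Nat.card (chi h2).ker) + 1 := by
    rw [← hτ, v2_mul hτ0 (by norm_num), v2_two]
  have e3 : v2 (Nat.card (BB (delta F))) = v2 (Nat.card (NT F)) + v2 (Nat.card (delta F).ker) := by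
    rw [hB, v2_mul hN0 hκ0]
  omega

/-- One good Sylow subgroup. -/
theorem exists_good (hF : Odd (Fintype.card F)) :
    ∃ Q : Sylow 2 (AutZ F), SqIn (Q : Subgroup (AutZ F)) := by
  have h2 : (2 : F) ≠ 0 := Cfsg.Agent.Lib.Char.SylowSq.Form.two_ne_zero_of_odd hF
  have hfA : Finite (AutZ F) := finite_AutZ
  obtain ⟨S, hS⟩ := exists_sylow_square (hyp_main h2) (hin hF) iN_pow
  obtain ⟨Q, hQ⟩ := sylow_of_map (PhiN F) S (v2_main hF)
  refine ⟨Q, ?_⟩
  intro x hx
  rw [hQ] at hx ⊢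
  obtain ⟨y, hy, rfl⟩ := hx
  obtain ⟨a, u, hu, hyu⟩ := hS y hy
  rw [pow_two, ← map_mul, hyu, map_mul, PhiN_dg, one_mul, ← Subgroup.map_commutator]
  exact Subgroup.mem_map_of_mem _ hu

/-- The main theorem. -/
theorem main (hF : Odd (Fintype.card F)) (P : Sylow 2 (Cfsg.Lie.G2 F)) (x : (P : Subgroup (Cfsg.Lie.G2 F))) :
    x ^ 2 ∈ commutator (P : Subgroup (Cfsg.Lie.G2 F)) := by
  have hfA : Finite (AutZ F) := finite_AutZ
  obtain ⟨Q, hQ⟩ := exists_good (F := F) hF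
  have h1 : SqD (Q : Subgroup (AutZ F)) := SqD_of_SqIn hQ
  let e : Cfsg.Lie.G2 F ≃* AutZ F := isoG2
  let P' : Sylow 2 (AutZ F) := P.mapSurjective (f := e.toMonoidHom) e.surjective
  have h2 : (P' : Subgroup (AutZ F)) = (P : Subgroup (Cfsg.Lie.G2 F)).map e.toMonoidHom :=
    Sylow.coe_mapSurjective _ _
  have h3 : SqD (P' : Subgroup (AutZ F)) := SqD.of_equiv (P'.equiv Q) h1
  have h4 : SqD ((P : Subgroup (Cfsg.Lie.G2 F)).map e.toMonoidHom) := by
    rw [← h2]
    exact h3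
  exact SqD.of_equiv (e.subgroupMap (P : Subgroup (Cfsg.Lie.G2 F))) h4 x

end Cfsg.Agent.Lib.Char.G2Syl.Main
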